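import Mathlib

/-!
An involution of an alternating group of degree other than four and five lies in the commutator of its centralizer.
-/

set_option autoImplicit false
set_option linter.unusedSectionVars false
set_option linter.unusedSimpArgs false

namespace CfsgLib.TwoAlt

open Equiv Equiv.Perm

variable {α : Type*} [Fintype α] [DecidableEq α]

theorem swap_pair_conj (s : Perm α) (hs : s * s = 1) {a b : α} (h : s a = b ∨ (s a = a ∧ s b = b)) :
    s * swap a b = swap a b * s := by
  have hinv : ∀ i, s (s i) = i := fun i => Equiv.Perm.congr_fun hs i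
  rw [mul_swap_eq_swap_mul]
  rcases h with h | ⟨h1, h2⟩
  · rw [h, ← h, hinv, h, swap_comm]
  · rw [h1, h2]

theorem double_swap_conj (s : Perm α) (hs : s * s = 1) {a b c d : α} (hb : s a = b) (hd : s c = d)
    (hab : a ≠ b) (hcd : c ≠ d) (had : a ≠ d) (hbc : b ≠ c) :
    s * (swap a c * swap b d) = (swap a c * swap b d) * s := by
  have hinv : ∀ i, s (s i) = i := fun i => Equiv.Perm.congr_fun hs i
  have hb' : s b = a := by rw [← hb, hinv]
  have hd' : s d = c := by rw [← hd, hinv]
  have hcomm : swap a c * swap b d = swap b d * swap a c := by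
    refine Equiv.Perm.Disjoint.commute ?_
    intro i
    by_cases h1 : i = a
    · subst h1; exact Or.inr (swap_apply_of_ne_of_ne hab had)
    · by_cases h2 : i = c
      · subst h2; exact Or.inr (swap_apply_of_ne_of_ne hbc.symm hcd)
      · exact Or.inl (swap_apply_of_ne_of_ne h1 h2)
  rw [← mul_assoc, mul_swap_eq_swap_mul s a c, mul_assoc, mul_swap_eq_swap_mul s b d, ← mul_assoc, hb, hd, hb', hd',
    ← hcomm]

theorem exists_other (hα : 6 ≤ Fintype.card α) (s : Perm α) (hs : s * s = 1) {a b c d : α}
    (hb : s a = b) (hd : s c = d) :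
    ∃ e f : α, e ≠ f ∧ (s e = f ∨ (s e = e ∧ s f = f)) ∧
      e ∉ ({a, b, c, d} : Finset α) ∧ f ∉ ({a, b, c, d} : Finset α) := by
  have hinv : ∀ i, s (s i) = i := fun i => Equiv.Perm.congr_fun hs i
  by_cases h : ∃ e, e ∉ ({a, b, c, d} : Finset α) ∧ s e ≠ e
  · obtain ⟨e, he, hse⟩ := h
    refine ⟨e, s e, Ne.symm hse, Or.inl rfl, he, fun hf => he ?_⟩
    simp only [Finset.mem_insert, Finset.mem_singleton] at hf ⊢
    rcases hf with h1 | h1 | h1 | h1 <;> have h2 := congrArg s h1 <;> rw [hinv] at h2
    · exact Or.inr (Or.inl (h2.trans hb))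
    · exact Or.inl (by rw [h2, ← hb, hinv])
    · exact Or.inr (Or.inr (Or.inr (h2.trans hd)))
    · exact Or.inr (Or.inr (Or.inl (by rw [h2, ← hd, hinv])))
  · push Not at h
    have hlt : 1 < ((Finset.univ : Finset α) \ {a, b, c, d}).card := by
      have := Finset.le_card_sdiff ({a, b, c, d} : Finset α) Finset.univ
      have h4 : ({a, b, c, d} : Finset α).card ≤ 4 := Finset.card_le_four
      rw [Finset.card_univ] at this
      omega
    obtain ⟨e, he, f, hf, hne⟩ := Finset.one_lt_card.mp hlt
    simp only [Finset.mem_sdiff, Finset.mem_univ, true_and] at he hf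
    exact ⟨e, f, hne, Or.inr ⟨h e he, h f hf⟩, he, hf⟩

theorem pair_eq_commutator {a b c d e f : α} (hab : a ≠ b) (hac : a ≠ c) (had : a ≠ d) (hbc : b ≠ c)
    (hbd : b ≠ d) (hcd : c ≠ d) (hef : e ≠ f) (he : e ∉ ({a, b, c, d} : Finset α))
    (hf : f ∉ ({a, b, c, d} : Finset α)) :
    (swap a c * swap b d) * (swap a b * swap e f) * (swap a c * swap b d)⁻¹ * (swap a b * swap e f)⁻¹ =
      swap a b * swap c d := by
  simp only [Finset.mem_insert, Finset.mem_singleton, not_or] at he hf
  obtain ⟨hea, heb, hec, hed⟩ := he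
  obtain ⟨hfa, hfb, hfc, hfd⟩ := hf
  have hs : ∀ i j : α, (swap i j)⁻¹ = swap i j := fun i j => Equiv.swap_inv i j
  rw [mul_inv_rev, mul_inv_rev, hs, hs, hs, hs]
  ext i
  simp only [Equiv.Perm.mul_apply]
  by_cases h1 : i = a
  · subst h1
    simp [swap_apply_of_ne_of_ne, *, Ne.symm, Ne.symm hab, Ne.symm hac, Ne.symm had, Ne.symm hbc, Ne.symm hbd,
      Ne.symm hcd, Ne.symm hef, Ne.symm hea, Ne.symm heb, Ne.symm hec, Ne.symm hed, Ne.symm hfa, Ne.symm hfb,
      Ne.symm hfc, Ne.symm hfd]
  by_cases h2 : i = b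
  · subst h2
    simp [swap_apply_of_ne_of_ne, *, Ne.symm hab, Ne.symm hac, Ne.symm had, Ne.symm hbc, Ne.symm hbd,
      Ne.symm hcd, Ne.symm hef, Ne.symm hea, Ne.symm heb, Ne.symm hec, Ne.symm hed, Ne.symm hfa, Ne.symm hfb,
      Ne.symm hfc, Ne.symm hfd]
  by_cases h3 : i = c
  · subst h3
    simp [swap_apply_of_ne_of_ne, *, Ne.symm hab, Ne.symm hac, Ne.symm had, Ne.symm hbc, Ne.symm hbd,
      Ne.symm hcd, Ne.symm hef, Ne.symm hea, Ne.symm heb, Ne.symm hec, Ne.symm hed, Ne.symm hfa, Ne.symm hfb,
      Ne.symm hfc, Ne.symm hfd]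
  by_cases h4 : i = d
  · subst h4
    simp [swap_apply_of_ne_of_ne, *, Ne.symm hab, Ne.symm hac, Ne.symm had, Ne.symm hbc, Ne.symm hbd,
      Ne.symm hcd, Ne.symm hef, Ne.symm hea, Ne.symm heb, Ne.symm hec, Ne.symm hed, Ne.symm hfa, Ne.symm hfb,
      Ne.symm hfc, Ne.symm hfd]
  by_cases h5 : i = e
  · subst h5
    simp [swap_apply_of_ne_of_ne, *, Ne.symm hea, Ne.symm heb, Ne.symm hec, Ne.symm hed, Ne.symm hef, Ne.symm hfa,
      Ne.symm hfb, Ne.symm hfc, Ne.symm hfd]
  by_cases h6 : i = f
  · subst h6
    simp [swap_apply_of_ne_of_ne, *, Ne.symm hea, Ne.symm heb, Ne.symm hec, Ne.symm hed, Ne.symm hef, Ne.symm hfa,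
      Ne.symm hfb, Ne.symm hfc, Ne.symm hfd]
  simp [swap_apply_of_ne_of_ne, *]

theorem involution_mem_commutator_aux (hα : 6 ≤ Fintype.card α) (s : alternatingGroup α) (hs : s * s = 1) :
    ∀ r : alternatingGroup α, (∀ i, (r : Perm α) i ≠ i → (r : Perm α) i = (s : Perm α) i) →
      r ∈ ⁅Subgroup.centralizer ({s} : Set (alternatingGroup α)),
          Subgroup.centralizer ({s} : Set (alternatingGroup α))⁆ := by
  intro r
  induction h : (r : Perm α).support.card using Nat.strong_induction_on generalizing r with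
  | _ n ih =>
    intro hr
    subst h
    by_cases hr1 : r = 1
    · rw [hr1]; exact one_mem _
    have hs' : (s : Perm α) * s = 1 := congrArg Subtype.val hs
    have hinv : ∀ i, (s : Perm α) ((s : Perm α) i) = i := fun i => Equiv.Perm.congr_fun hs' i
    obtain ⟨a, ha⟩ : ∃ a, (r : Perm α) a ≠ a := by
      by_contra h
      push Not at h
      exact hr1 (Subtype.ext (Equiv.ext h))
    obtain ⟨b, hb⟩ : ∃ b, b = (r : Perm α) a := ⟨_, rfl⟩
    have hsa : (s : Perm α) a = b := (hr a ha).symm.trans hb.symm
    have hab : a ≠ b := fun h => ha (hb.symm.trans h.symm)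
    have hrb : (r : Perm α) b = a := by
      have : (r : Perm α) b ≠ b := fun h => hab ((r : Perm α).injective (hb.symm.trans h.symm))
      rw [hr b this, ← hsa, hinv]
    obtain ⟨c, hc, hca, hcb⟩ : ∃ c, (r : Perm α) c ≠ c ∧ c ≠ a ∧ c ≠ b := by
      by_contra h
      push Not at h
      have heq : (r : Perm α) = swap a b := by
        refine Equiv.ext fun i => ?_
        by_cases h1 : i = a
        · rw [h1, swap_apply_left, hb]
        by_cases h2 : i = b
        · rw [h2, swap_apply_right, hrb]
        rw [swap_apply_of_ne_of_ne h1 h2]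
        by_contra h3
        exact h2 (h i h3 h1)
      have hsign : Equiv.Perm.sign (r : Perm α) = 1 := r.2
      rw [heq, sign_swap hab] at hsign
      exact absurd hsign (by decide)
    obtain ⟨d, hd⟩ : ∃ d, d = (r : Perm α) c := ⟨_, rfl⟩
    have hsc : (s : Perm α) c = d := (hr c hc).symm.trans hd.symm
    have hcd : c ≠ d := fun h => hc (hd.symm.trans h.symm)
    have had : a ≠ d := fun h => hcb ((r : Perm α).injective (by rw [← hd, ← h, hrb]))
    have hbd : b ≠ d := fun h => hca ((r : Perm α).injective (by rw [← hd, ← h, hb]))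
    obtain ⟨e, f, hef, hsef, he, hf⟩ := exists_other hα (s : Perm α) hs' hsa hsc
    have hsw : ∀ {i j k l : α}, i ≠ j → k ≠ l → swap i j * swap k l ∈ alternatingGroup α := by
      intro i j k l h1 h2
      rw [mem_alternatingGroup, map_mul, sign_swap h1, sign_swap h2]
      rfl
    set X : alternatingGroup α := ⟨swap a c * swap b d, hsw hca.symm hbd⟩ with hX
    set Y : alternatingGroup α := ⟨swap a b * swap e f, hsw hab hef⟩ with hY
    set Z : alternatingGroup α := ⟨swap a b * swap c d, hsw hab hcd⟩ with hZ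
    have hXc : X ∈ Subgroup.centralizer ({s} : Set (alternatingGroup α)) :=
      Subgroup.mem_centralizer_singleton_iff.mpr (Subtype.ext
        (double_swap_conj (s : Perm α) hs' hsa hsc hab hcd had hcb.symm).symm)
    have hYc : Y ∈ Subgroup.centralizer ({s} : Set (alternatingGroup α)) := by
      refine Subgroup.mem_centralizer_singleton_iff.mpr (Subtype.ext ?_)
      show swap a b * swap e f * (s : Perm α) = (s : Perm α) * (swap a b * swap e f)
      rw [mul_assoc, ← swap_pair_conj (s : Perm α) hs' hsef, ← mul_assoc,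
        ← swap_pair_conj (s : Perm α) hs' (Or.inl hsa), mul_assoc]
    have hZm : Z ∈ ⁅Subgroup.centralizer ({s} : Set (alternatingGroup α)),
        Subgroup.centralizer ({s} : Set (alternatingGroup α))⁆ := by
      have : Z = X * Y * X⁻¹ * Y⁻¹ := Subtype.ext
        (pair_eq_commutator hab hca.symm had hcb.symm hbd hcd hef he hf).symm
      rw [this]
      exact Subgroup.commutator_mem_commutator hXc hYc
    have hkey : ∀ i, ((Z * r : alternatingGroup α) : Perm α) i ≠ i →
        ((Z * r : alternatingGroup α) : Perm α) i = (r : Perm α) i ∧ (r : Perm α) i ≠ i ∧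
          i ≠ a ∧ i ≠ b ∧ i ≠ c ∧ i ≠ d := by
      have hrd : (r : Perm α) d = c := by
        have : (r : Perm α) d ≠ d := fun h => hcd ((r : Perm α).injective (hd.symm.trans h.symm))
        rw [hr d this, ← hsc, hinv]
      intro i hi
      change (swap a b * swap c d) ((r : Perm α) i) ≠ i at hi
      show (swap a b * swap c d) ((r : Perm α) i) = (r : Perm α) i ∧ _
      rw [Equiv.Perm.mul_apply] at hi ⊢
      have hia : i ≠ a := by
        rintro rfl
        rw [← hb, swap_apply_of_ne_of_ne hcb.symm hbd, swap_apply_right] at hi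
        exact hi rfl
      have hib : i ≠ b := by
        rintro rfl
        rw [hrb, swap_apply_of_ne_of_ne hca.symm had, swap_apply_left] at hi
        exact hi rfl
      have hic : i ≠ c := by
        rintro rfl
        rw [← hd, swap_apply_right, swap_apply_of_ne_of_ne hca hcb] at hi
        exact hi rfl
      have hid : i ≠ d := by
        rintro rfl
        rw [hrd, swap_apply_left, swap_apply_of_ne_of_ne had.symm hbd.symm] at hi
        exact hi rfl
      have h1 : (r : Perm α) i ≠ a := fun h => hib ((r : Perm α).injective (h.trans hrb.symm))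
      have h2 : (r : Perm α) i ≠ b := fun h => hia ((r : Perm α).injective (h.trans hb))
      have h3 : (r : Perm α) i ≠ c := fun h => hid ((r : Perm α).injective (h.trans hrd.symm))
      have h4 : (r : Perm α) i ≠ d := fun h => hic ((r : Perm α).injective (h.trans hd))
      rw [swap_apply_of_ne_of_ne h3 h4, swap_apply_of_ne_of_ne h1 h2] at hi ⊢
      exact ⟨rfl, hi, hia, hib, hic, hid⟩
    have hlt : ((Z * r : alternatingGroup α) : Perm α).support.card < (r : Perm α).support.card := by
      refine Finset.card_lt_card ((Finset.ssubset_iff_of_subset fun i hi => ?_).mpr ⟨a, ?_, fun hi => ?_⟩)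
      · exact mem_support.mpr (hkey i (mem_support.mp hi)).2.1
      · exact mem_support.mpr ha
      · exact (hkey a (mem_support.mp hi)).2.2.1 rfl
    have hrec := ih _ hlt (Z * r) rfl (fun i hi => by
      obtain ⟨h1, h2, -⟩ := hkey i hi
      rw [h1, hr i h2])
    have := mul_mem (inv_mem hZm) hrec
    rwa [inv_mul_cancel_left] at this

theorem involution_mem_commutator (hα : 6 ≤ Fintype.card α) (s : alternatingGroup α) (hs : s * s = 1) :
    s ∈ ⁅Subgroup.centralizer ({s} : Set (alternatingGroup α)),
        Subgroup.centralizer ({s} : Set (alternatingGroup α))⁆ :=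
  involution_mem_commutator_aux hα s hs s fun _ _ => rfl

theorem no_involution_of_le_three {m : ℕ} (hm : m ≤ 3) (s : alternatingGroup (Fin m)) (hs : s * s = 1) :
    s = 1 := by
  interval_cases m <;> revert s <;> decide

end CfsgLib.TwoAlt
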