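import Cfsg.Prelude.Def_TwoFusion
import Cfsg.Prelude.Def_SporadicB
import Cfsg.Agent.Transfer.ThompsonTransfer
import Cfsg.Agent.TwoAlt.Perm

/-!
An involution with centralizer `2 × A_m`, `m ≠ 4, 5`: a subgroup of index two exists.
-/

set_option autoImplicit false

namespace CfsgLib.TwoAlt

open Subgroup

universe u

variable {G : Type u} [Group G]

/-- The setting. -/
structure Split (J : G) (T : Subgroup G) : Prop where
  sq : J * J = 1
  ne : J ≠ 1
  prod : Cfsg.IsInternalDirectProduct (zpowers J) T (centralizer ({J} : Set G))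

namespace Split

variable {J : G} {T : Subgroup G} (h : Split J T)
include h

theorem comm {x : G} (hx : x ∈ T) : x * J = J * x :=
  mem_centralizer_singleton_iff.mp (h.prod.2.1 hx)

theorem not_mem : J ∉ T := fun hJ =>
  h.ne (Subgroup.mem_bot.mp (h.prod.2.2.2.1 ▸ Subgroup.mem_inf.mpr ⟨mem_zpowers J, hJ⟩))

theorem split {c : G} (hc : c * J = J * c) : ∃ x ∈ T, c = x ∨ c = J * x := by
  have hc' : c ∈ (zpowers J ⊔ T : Subgroup G) := by
    rw [h.prod.2.2.2.2]; exact mem_centralizer_singleton_iff.mpr hc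
  have hn : zpowers J ≤ normalizer (T : Set G) := by
    refine zpowers_le.mpr (mem_normalizer_iff.mpr fun x => ⟨fun hx => ?_, fun hx => ?_⟩)
    · rwa [← h.comm hx, mul_inv_cancel_right]
    · have h1 := h.comm hx
      have : x = J * x * J⁻¹ := by
        calc x = J⁻¹ * (J * x * J⁻¹ * J) := by group
        _ = J⁻¹ * (J * (J * x * J⁻¹)) := by rw [h1]
        _ = J * x * J⁻¹ := by group
      rwa [this]
  rw [← SetLike.mem_coe, coe_mul_of_left_le_normalizer_right _ _ hn] at hc'
  obtain ⟨a, ⟨n, rfl⟩, x, hx, rfl⟩ := Set.mem_mul.mp hc'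
  refine ⟨x, hx, ?_⟩
  rcases Int.even_or_odd n with ⟨k, rfl⟩ | ⟨k, rfl⟩
  · left
    show J ^ (k + k) * x = x
    rw [zpow_add, ← (Commute.refl J).mul_zpow, h.sq, one_zpow, one_mul]
  · right
    show J ^ (2 * k + 1) * x = J * x
    rw [zpow_add_one, zpow_mul, zpow_ofNat, pow_two, h.sq, one_zpow, one_mul]

/-- If every involution of `T` lies in the commutator of its centralizer in `T`, then `J` has no
conjugate in `T`. -/
theorem not_conj_mem
    (hT : ∀ s ∈ T, s * s = 1 → s ∈ ⁅centralizer ({s} : Set G) ⊓ T, centralizer ({s} : Set G) ⊓ T⁆)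
    (g : G) : g * J * g⁻¹ ∉ T := by
  intro htT
  set t := g * J * g⁻¹ with ht
  set t' := g⁻¹ * J * g with ht'
  set H := centralizer ({J} : Set G) ⊓ centralizer ({t} : Set G) with hH
  have hHT : ⁅H, H⁆ ≤ T := by
    rw [Subgroup.commutator_le]
    intro c hc d hd
    obtain ⟨x, hx, hcx⟩ := h.split (mem_centralizer_singleton_iff.mp (mem_inf.mp hc).1)
    obtain ⟨y, hy, hdy⟩ := h.split (mem_centralizer_singleton_iff.mp (mem_inf.mp hd).1)
    have key : ∀ {a b p q : G}, a * p = p * a → a * q = q * a → a * b = b * a →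
        (a * p) * (b * q) * (a * p)⁻¹ * (b * q)⁻¹ = p * (b * q) * p⁻¹ * (b * q)⁻¹ := by
      intro a b p q h1 h2 h3
      have h4 : a * (p * (b * q) * p⁻¹) = (p * (b * q) * p⁻¹) * a := by
        have ca : Commute a p := h1
        exact ((ca.mul_right ((show Commute a b from h3).mul_right (show Commute a q from h2))).mul_right
          ca.inv_right).eq
      calc (a * p) * (b * q) * (a * p)⁻¹ * (b * q)⁻¹
          = (a * (p * (b * q) * p⁻¹)) * a⁻¹ * (b * q)⁻¹ := by group
      _ = p * (b * q) * p⁻¹ * (b * q)⁻¹ := by rw [h4, mul_inv_cancel_right]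
    have hx' := h.comm hx
    have hy' := h.comm hy
    rw [commutatorElement_def]
    rcases hcx with rfl | rfl <;> rcases hdy with rfl | rfl
    · exact mul_mem (mul_mem (mul_mem hx hy) (inv_mem hx)) (inv_mem hy)
    · have : c * (J * y) * c⁻¹ * (J * y)⁻¹ = c * y * c⁻¹ * y⁻¹ := by
        calc c * (J * y) * c⁻¹ * (J * y)⁻¹ = (c * J) * y * c⁻¹ * y⁻¹ * J⁻¹ := by group
        _ = J * (c * y * c⁻¹ * y⁻¹) * J⁻¹ := by rw [hx']; group
        _ = c * y * c⁻¹ * y⁻¹ := by
          rw [← h.comm (mul_mem (mul_mem (mul_mem hx hy) (inv_mem hx)) (inv_mem hy)), mul_inv_cancel_right]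
      rw [this]
      exact mul_mem (mul_mem (mul_mem hx hy) (inv_mem hx)) (inv_mem hy)
    · have := key (a := J) (b := 1) (p := x) (q := d) hx'.symm hy'.symm (by simp)
      rw [one_mul] at this
      rw [this]
      exact mul_mem (mul_mem (mul_mem hx hy) (inv_mem hx)) (inv_mem hy)
    · have h1 := key (a := J) (b := J) (p := x) (q := y) hx'.symm hy'.symm rfl
      rw [h1]
      have : x * (J * y) * x⁻¹ * (J * y)⁻¹ = x * y * x⁻¹ * y⁻¹ := by
        calc x * (J * y) * x⁻¹ * (J * y)⁻¹ = (x * J) * y * x⁻¹ * y⁻¹ * J⁻¹ := by group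
        _ = J * (x * y * x⁻¹ * y⁻¹) * J⁻¹ := by rw [hx']; group
        _ = x * y * x⁻¹ * y⁻¹ := by
          rw [← h.comm (mul_mem (mul_mem (mul_mem hx hy) (inv_mem hx)) (inv_mem hy)), mul_inv_cancel_right]
      rw [this]
      exact mul_mem (mul_mem (mul_mem hx hy) (inv_mem hx)) (inv_mem hy)
  have hJne : t ≠ J := fun e => h.not_mem (e ▸ htT)
  have ht2 : t * t = 1 := by
    rw [ht, show g * J * g⁻¹ * (g * J * g⁻¹) = g * (J * J) * g⁻¹ by group, h.sq, mul_one, mul_inv_cancel]
  have htH : t ∈ ⁅H, H⁆ := by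
    refine Subgroup.commutator_mono ?_ ?_ (hT t htT ht2) <;>
      exact le_inf (inf_le_right.trans h.prod.2.1) inf_le_left
  have htJ : t * J = J * t := h.comm htT
  have hc' : t' * J = J * t' := by
    calc t' * J = g⁻¹ * (J * t) * g := by rw [ht, ht']; group
    _ = g⁻¹ * (t * J) * g := by rw [htJ]
    _ = J * t' := by rw [ht, ht']; group
  obtain ⟨s, hs, hcase⟩ := h.split hc'
  have ht'2 : t' * t' = 1 := by
    rw [ht', show g⁻¹ * J * g * (g⁻¹ * J * g) = g⁻¹ * (J * J) * g by group, h.sq, mul_one, inv_mul_cancel]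
  have hs2 : s * s = 1 := by
    rcases hcase with e | e
    · rw [← e, ht'2]
    · calc s * s = (J * J) * (s * s) := by rw [h.sq, one_mul]
      _ = J * (J * s) * s := by group
      _ = J * (s * J) * s := by rw [h.comm hs]
      _ = (J * s) * (J * s) := by group
      _ = 1 := by rw [← e, ht'2]
  have hconj : g * s * g⁻¹ ∈ ⁅H, H⁆ := by
    have h1 : (centralizer ({s} : Set G) ⊓ T).map (MulAut.conj g).toMonoidHom ≤ H := by
      rintro _ ⟨y, hy, rfl⟩
      obtain ⟨hys, hyT⟩ := mem_inf.mp hy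
      rw [mem_centralizer_singleton_iff] at hys
      have hyJ := h.comm hyT
      have hyt : y * t' = t' * y := by
        rcases hcase with e | e <;> rw [e]
        · exact hys
        · rw [← mul_assoc, hyJ, mul_assoc, hys, mul_assoc]
      refine mem_inf.mpr ⟨mem_centralizer_singleton_iff.mpr ?_, mem_centralizer_singleton_iff.mpr ?_⟩
      · show g * y * g⁻¹ * J = J * (g * y * g⁻¹)
        calc g * y * g⁻¹ * J = g * (y * t') * g⁻¹ := by rw [ht']; group
        _ = g * (t' * y) * g⁻¹ := by rw [hyt]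
        _ = J * (g * y * g⁻¹) := by rw [ht']; group
      · show g * y * g⁻¹ * t = t * (g * y * g⁻¹)
        calc g * y * g⁻¹ * t = g * (y * J) * g⁻¹ := by rw [ht]; group
        _ = g * (J * y) * g⁻¹ := by rw [hyJ]
        _ = t * (g * y * g⁻¹) := by rw [ht]; group
    have h2 := Subgroup.mem_map_of_mem (MulAut.conj g).toMonoidHom (hT s hs hs2)
    rw [Subgroup.map_commutator] at h2
    exact Subgroup.commutator_mono h1 h1 h2
  rcases hcase with e | e
  · refine h.not_mem (hHT ?_)
    rw [← e] at hconj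
    rwa [ht', show g * (g⁻¹ * J * g) * g⁻¹ = J by group] at hconj
  · have e' : s = J * t' := by rw [e, ← mul_assoc, h.sq, one_mul]
    rw [e', show g * (J * t') * g⁻¹ = t * J by rw [ht, ht']; group] at hconj
    refine h.not_mem ?_
    have := mul_mem (inv_mem htT) (hHT hconj)
    rwa [inv_mul_cancel_left] at this

theorem exists_index_two [Finite G] {P : Sylow 2 G} (hJP : J ∈ P) (hP : ∀ x ∈ P, x * J = J * x)
    (hT : ∀ g : G, g * J * g⁻¹ ∉ T) : ∃ N : Subgroup G, N.Normal ∧ N.index = 2 := by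
  set Q := (P : Subgroup G) ⊓ T with hQ
  have hidx : Q.relIndex (P : Subgroup G) = 2 := by
    rw [Subgroup.relIndex, Subgroup.index_eq_two_iff]
    refine ⟨⟨J, hJP⟩, fun b => ?_⟩
    simp only [mem_subgroupOf, Subgroup.coe_mul, hQ, mem_inf]
    have hb : (b : G) ∈ (P : Subgroup G) := b.2
    have hbJ : (b : G) * J ∈ (P : Subgroup G) := mul_mem hb hJP
    obtain ⟨x, hx, hbx⟩ := h.split (hP b hb)
    rcases hbx with e | e
    · refine Or.inr ⟨⟨hb, e ▸ hx⟩, fun hc => h.not_mem ?_⟩
      have := mul_mem (inv_mem hx) hc.2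
      rwa [e, inv_mul_cancel_left] at this
    · refine Or.inl ⟨⟨hbJ, ?_⟩, fun hc => h.not_mem ?_⟩
      · rw [e, mul_assoc, h.comm hx, ← mul_assoc, h.sq, one_mul]; exact hx
      · have := mul_mem hc.2 (inv_mem hx)
        rwa [e, mul_inv_cancel_right] at this
  have ho : orderOf J = 2 := orderOf_eq_prime (by rw [pow_two, h.sq]) h.ne
  rcases CfsgLib.Transfer.thompsonTransferLemma P Q inf_le_left hidx J ho hJP
      (fun e => h.not_mem (mem_inf.mp e).2) with ⟨M, h1, h2, -⟩ | ⟨g, hg⟩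
  · exact ⟨M, h1, h2⟩
  · exact absurd (mem_inf.mp hg).2 (hT g)

end Split

theorem commutator_of_mulEquiv {m : ℕ} {T : Subgroup G} (hm : 6 ≤ m ∨ m ≤ 3)
    (e : T ≃* alternatingGroup (Fin m)) {s : G} (hs : s ∈ T) (hs2 : s * s = 1) :
    s ∈ ⁅centralizer ({s} : Set G) ⊓ T, centralizer ({s} : Set G) ⊓ T⁆ := by
  set σ := e ⟨s, hs⟩ with hσ
  have hσ2 : σ * σ = 1 := by rw [hσ, ← map_mul, ← map_one e]; exact congrArg e (Subtype.ext hs2)
  rcases hm with hm | hm
  · have hmem := involution_mem_commutator (by simpa using hm) σ hσ2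
    set f : alternatingGroup (Fin m) →* G := T.subtype.comp e.symm.toMonoidHom with hf
    have hfσ : f σ = s := by simp [hf, hσ]
    have h1 : (centralizer ({σ} : Set (alternatingGroup (Fin m)))).map f ≤ centralizer ({s} : Set G) ⊓ T := by
      rintro _ ⟨y, hy, rfl⟩
      refine mem_inf.mpr ⟨mem_centralizer_singleton_iff.mpr ?_, (e.symm y).2⟩
      rw [← hfσ, ← map_mul, ← map_mul, mem_centralizer_singleton_iff.mp hy]
    have h2 := Subgroup.mem_map_of_mem f hmem
    rw [Subgroup.map_commutator, hfσ] at h2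
    exact Subgroup.commutator_mono h1 h1 h2
  · have h1 : σ = 1 := no_involution_of_le_three hm σ hσ2
    rw [hσ, MulEquiv.map_eq_one_iff] at h1
    rw [show s = 1 from congrArg Subtype.val h1]
    exact one_mem _

end CfsgLib.TwoAlt
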