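import Cfsg.Agent.TwoAlt.Four

/-!
The order of a non-solvable group with an involution centralizer `2 × A₄`.
-/

set_option autoImplicit false
set_option linter.style.haveILetI false
set_option linter.unusedSectionVars false

namespace CfsgLib.TwoAlt

open Subgroup

universe u

variable {G : Type u} [Group G] [Finite G]

theorem smul_mk_eq_iff {H : Subgroup G} (t g : G) :
    t • (g : G ⧸ H) = (g : G ⧸ H) ↔ g⁻¹ * t * g ∈ H := by
  show ((t * g : G) : G ⧸ H) = (g : G ⧸ H) ↔ _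
  rw [eq_comm, QuotientGroup.eq, mul_assoc]

/-- Two elements of prime order seven in a group of order at most 48 generate the same subgroup. -/
theorem mem_zpowers_of_card_lt {D : Subgroup G} (hD : Nat.card D < 49) {p q : G} (hp : p ∈ D) (hq : q ∈ D)
    (hp7 : orderOf p = 7) (hq7 : orderOf q = 7) : q ∈ zpowers p := by
  by_contra hqp
  have hinf : zpowers p ⊓ zpowers q = ⊥ := by
    have hd : Nat.card (zpowers p ⊓ zpowers q : Subgroup G) ∣ 7 := by
      rw [← hq7, ← Nat.card_zpowers]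
      exact Subgroup.card_dvd_of_le inf_le_right
    rcases (Nat.dvd_prime (by norm_num)).mp hd with h | h
    · exact Subgroup.card_eq_one.mp h
    · refine absurd ?_ hqp
      have : (zpowers p ⊓ zpowers q : Subgroup G) = zpowers q :=
        Subgroup.eq_of_le_of_card_ge inf_le_right (by rw [h, Nat.card_zpowers, hq7])
      exact (inf_eq_right.mp this) (mem_zpowers q)
  let f : zpowers p × zpowers q → D := fun x =>
    ⟨x.1 * x.2, mul_mem ((zpowers_le.mpr hp) x.1.2) ((zpowers_le.mpr hq) x.2.2)⟩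
  have hf : Function.Injective f := by
    intro x y h
    have h' : (x.1 : G) * x.2 = (y.1 : G) * y.2 := congrArg Subtype.val h
    have h1 : (y.1 : G)⁻¹ * x.1 = (y.2 : G) * (x.2 : G)⁻¹ := by
      calc (y.1 : G)⁻¹ * x.1 = (y.1 : G)⁻¹ * (x.1 * x.2) * (x.2 : G)⁻¹ := by group
      _ = (y.2 : G) * (x.2 : G)⁻¹ := by rw [h']; group
    have h2 : (y.1 : G)⁻¹ * x.1 ∈ zpowers p ⊓ zpowers q :=
      mem_inf.mpr ⟨mul_mem (inv_mem y.1.2) x.1.2, h1 ▸ mul_mem y.2.2 (inv_mem x.2.2)⟩
    rw [hinf, Subgroup.mem_bot] at h2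
    have e1 : y.1 = x.1 := Subtype.ext (inv_mul_eq_one.mp h2)
    rw [e1] at h'
    exact Prod.ext e1.symm (Subtype.ext (mul_left_cancel h'))
  have := Nat.card_le_card_of_injective f hf
  rw [Nat.card_prod, Nat.card_zpowers, Nat.card_zpowers, hp7, hq7] at this
  omega

namespace Four

variable (F : Four G)

/-- the normalizer of the Sylow subgroup -/
def N : Subgroup G := normalizer ((F.S : Subgroup G) : Set G)

/-- the involutions -/
def Inv (G : Type u) [Group G] : Type u := {t : G // t * t = 1 ∧ t ≠ 1}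

theorem S_le : (F.S : Subgroup G) ≤ F.N := le_normalizer

theorem comm {a b : G} (ha : a ∈ F.S) (hb : b ∈ F.S) : a * b = b * a := by
  have h := F.sq _ (mul_mem ha hb)
  calc a * b = (a * b)⁻¹ := (inv_eq_of_mul_eq_one_right h).symm
  _ = b⁻¹ * a⁻¹ := mul_inv_rev a b
  _ = b * a := by rw [inv_eq_of_mul_eq_one_right (F.sq a ha), inv_eq_of_mul_eq_one_right (F.sq b hb)]

include F in
theorem mem_of_inv {t : G} (ht : t * t = 1) (htN : t ∈ F.N) : t ∈ F.S := by
  haveI : Fact (Nat.Prime 2) := ⟨Nat.prime_two⟩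
  have hkp : IsPGroup 2 (zpowers t) := by
    obtain ⟨i, -, hi⟩ := (Nat.dvd_prime_pow Nat.prime_two).mp
      (orderOf_dvd_of_pow_eq_one (by rw [pow_two, ht] : t ^ 2 = 1) |>.trans (by norm_num : 2 ∣ 2 ^ 1))
    exact IsPGroup.of_card (n := i) (by rw [Nat.card_zpowers, hi])
  have := F.S.3 (IsPGroup.to_sup_of_normal_left' F.S.2 hkp (zpowers_le.mpr htN)) le_sup_left
  show t ∈ (F.S : Subgroup G)
  rw [← this]
  exact le_sup_right (a := (F.S : Subgroup G)) (mem_zpowers t)

theorem cent_le' {a c : G} (ha : a ∈ F.S) (ha1 : a ≠ 1) (hc : c * a = a * c) : c ∈ F.N := by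
  obtain ⟨n, hn, rfl⟩ := F.one_class a ha ha1
  have h1 : n⁻¹ * c * n ∈ centralizer ({F.J} : Set G) := mem_centralizer_singleton_iff.mpr (by
    calc n⁻¹ * c * n * F.J = n⁻¹ * (c * (n * F.J * n⁻¹)) * n := by group
    _ = n⁻¹ * ((n * F.J * n⁻¹) * c) * n := by rw [hc]
    _ = F.J * (n⁻¹ * c * n) := by group)
  have h2 := mul_mem (mul_mem hn (F.cent_le h1)) (inv_mem hn)
  rwa [show n * (n⁻¹ * c * n) * n⁻¹ = c by group] at h2

theorem conj_J {t : G} (ht : t * t = 1) (ht1 : t ≠ 1) : ∃ g, g * F.J * g⁻¹ = t := by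
  haveI : Fact (Nat.Prime 2) := ⟨Nat.prime_two⟩
  have hkp : IsPGroup 2 (zpowers t) := by
    refine IsPGroup.of_card (n := 1) ?_
    rw [Nat.card_zpowers, pow_one, orderOf_eq_prime (by rw [pow_two, ht]) ht1]
  obtain ⟨R, hR⟩ := hkp.exists_le_sylow
  obtain ⟨d, hd⟩ := MulAction.exists_smul_eq G F.S R
  have htR : t ∈ (R : Subgroup G) := hR (mem_zpowers t)
  rw [← hd, Sylow.coe_subgroup_smul, Subgroup.mem_pointwise_smul_iff_inv_smul_mem] at htR
  have ha : d⁻¹ * t * d ∈ F.S := by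
    simp only [MulAut.smul_def, ← map_inv, MulAut.conj_apply, inv_inv] at htR
    exact htR
  have ha1 : d⁻¹ * t * d ≠ 1 := fun e => ht1 (by
    calc t = d * (d⁻¹ * t * d) * d⁻¹ := by group
    _ = 1 := by rw [e, mul_one, mul_inv_cancel])
  obtain ⟨n, -, hn⟩ := F.one_class _ ha ha1
  exact ⟨d * n, by
    calc d * n * F.J * (d * n)⁻¹ = d * (n * F.J * n⁻¹) * d⁻¹ := by group
    _ = t := by rw [hn]; group⟩

theorem fixed_unique {t : G} (ht : t * t = 1) (ht1 : t ≠ 1) {x y : G ⧸ F.N} (hx : t • x = x)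
    (hy : t • y = y) : x = y := by
  induction x using QuotientGroup.induction_on with | _ g =>
  induction y using QuotientGroup.induction_on with | _ k =>
  rw [smul_mk_eq_iff] at hx hy
  have hsq : ∀ w : G, (w⁻¹ * t * w) * (w⁻¹ * t * w) = 1 := fun w => by
    rw [show w⁻¹ * t * w * (w⁻¹ * t * w) = w⁻¹ * (t * t) * w by group, ht, mul_one, inv_mul_cancel]
  have hne : g⁻¹ * t * g ≠ 1 := fun e => ht1 (by
    calc t = g * (g⁻¹ * t * g) * g⁻¹ := by group
    _ = 1 := by rw [e, mul_one, mul_inv_cancel])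
  have hne' : k⁻¹ * t * k ≠ 1 := fun e => ht1 (by
    calc t = k * (k⁻¹ * t * k) * k⁻¹ := by group
    _ = 1 := by rw [e, mul_one, mul_inv_cancel])
  obtain ⟨n, hn, hn'⟩ := F.one_class _ (F.mem_of_inv (hsq g) hx) hne
  obtain ⟨m, hm, hm'⟩ := F.one_class _ (F.mem_of_inv (hsq k) hy) hne'
  rw [QuotientGroup.eq]
  have hc : n⁻¹ * g⁻¹ * k * m ∈ F.N := by
    refine F.cent_le (mem_centralizer_singleton_iff.mpr ?_)
    calc n⁻¹ * g⁻¹ * k * m * F.J = n⁻¹ * g⁻¹ * k * (m * F.J * m⁻¹) * m := by group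
    _ = n⁻¹ * (g⁻¹ * t * g) * g⁻¹ * k * m := by rw [hm']; group
    _ = F.J * (n⁻¹ * g⁻¹ * k * m) := by rw [← hn']; group
  have := mul_mem (mul_mem hn hc) (inv_mem hm)
  rwa [show n * (n⁻¹ * g⁻¹ * k * m) * m⁻¹ = g⁻¹ * k by group] at this

theorem card_involutions : Nat.card (Inv G) = Nat.card (G ⧸ F.N) * 7 := by
  let A := {a : G // a ∈ F.S ∧ a ≠ 1}
  have hA : Nat.card A = 7 := by
    show Nat.card ({a : G | a ∈ F.S ∧ a ≠ 1} : Set G) = 7
    rw [Nat.card_coe_set_eq, show {a : G | a ∈ F.S ∧ a ≠ 1} = ((F.S : Subgroup G) : Set G) \ {1} by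
        ext; simp,
      Set.ncard_sdiff (Set.singleton_subset_iff.mpr (one_mem (F.S : Subgroup G))), Set.ncard_singleton,
      ← Nat.card_coe_set_eq]
    show Nat.card (F.S : Subgroup G) - 1 = 7
    rw [F.card_S]
  rw [← hA, ← Nat.card_prod]
  let f : (G ⧸ F.N) × A → Inv G := fun p => ⟨p.1.out * p.2.1 * p.1.out⁻¹, by
    rw [show p.1.out * p.2.1 * p.1.out⁻¹ * (p.1.out * p.2.1 * p.1.out⁻¹) =
      p.1.out * (p.2.1 * p.2.1) * p.1.out⁻¹ by group, F.sq _ p.2.2.1, mul_one, mul_inv_cancel],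
    fun e => p.2.2.2 (by
      calc p.2.1 = p.1.out⁻¹ * (p.1.out * p.2.1 * p.1.out⁻¹) * p.1.out := by group
      _ = 1 := by rw [e, mul_one, inv_mul_cancel])⟩
  have hfix : ∀ (q : G ⧸ F.N) (a : A), (f (q, a)).1 • q = q := by
    intro q a
    conv_lhs => arg 2; rw [← q.out_eq]
    conv_rhs => rw [← q.out_eq]
    refine (smul_mk_eq_iff _ _).mpr ?_
    show q.out⁻¹ * (q.out * a.1 * q.out⁻¹) * q.out ∈ F.N
    rw [show q.out⁻¹ * (q.out * a.1 * q.out⁻¹) * q.out = a.1 by group]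
    exact F.S_le a.2.1
  refine (Nat.card_eq_of_bijective f ⟨?_, ?_⟩).symm
  · rintro ⟨q, a⟩ ⟨r, b⟩ h
    have hq : q = r := F.fixed_unique (f (q, a)).2.1 (f (q, a)).2.2 (hfix q a) (by rw [h]; exact hfix r b)
    subst hq
    have hv : q.out * a.1 * q.out⁻¹ = q.out * b.1 * q.out⁻¹ := congrArg Subtype.val h
    exact Prod.ext rfl (Subtype.ext (mul_left_cancel (mul_right_cancel hv)))
  · rintro ⟨t, ht, ht1⟩
    obtain ⟨g, rfl⟩ := F.conj_J ht ht1
    set q : G ⧸ F.N := (g : G ⧸ F.N) with hq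
    have hn : g⁻¹ * q.out ∈ F.N := by
      rw [← QuotientGroup.eq]; exact q.out_eq.symm
    refine ⟨(q, ⟨(g⁻¹ * q.out)⁻¹ * F.J * (g⁻¹ * q.out), ?_, ?_⟩), Subtype.ext ?_⟩
    · exact (mem_normalizer_iff''.mp hn F.J).mp F.mem
    · intro e
      exact F.ne (by
        calc F.J = (g⁻¹ * q.out) * ((g⁻¹ * q.out)⁻¹ * F.J * (g⁻¹ * q.out)) * (g⁻¹ * q.out)⁻¹ := by group
        _ = 1 := by rw [e, mul_one, mul_inv_cancel])
    · show q.out * ((g⁻¹ * q.out)⁻¹ * F.J * (g⁻¹ * q.out)) * q.out⁻¹ = g * F.J * g⁻¹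
      group

include F in
/-- An element of order seven and an element of order three fixing a common point do not commute. -/
theorem not_commute {p y : G} (hp : orderOf p = 7) (hy : orderOf y = 3) {x : G ⧸ F.N}
    (hpx : p • x = x) (hyx : y • x = x) : y * p ≠ p * y := by
  induction x using QuotientGroup.induction_on with | _ g =>
  rw [smul_mk_eq_iff] at hpx hyx
  intro hcomm
  set p' := g⁻¹ * p * g with hp'
  set y' := g⁻¹ * y * g with hy'
  have hp7 : orderOf p' = 7 := by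
    rw [hp', show g⁻¹ * p * g = g⁻¹ * p * g⁻¹⁻¹ by rw [inv_inv]]
    rw [← hp]; exact orderOf_injective (MulAut.conj g⁻¹).toMonoidHom (MulAut.conj g⁻¹).injective p
  have hy3 : orderOf y' = 3 := by
    rw [hy', show g⁻¹ * y * g = g⁻¹ * y * g⁻¹⁻¹ by rw [inv_inv]]
    rw [← hy]; exact orderOf_injective (MulAut.conj g⁻¹).toMonoidHom (MulAut.conj g⁻¹).injective y
  have hc : Commute y' p' := by
    show g⁻¹ * y * g * (g⁻¹ * p * g) = g⁻¹ * p * g * (g⁻¹ * y * g)
    calc g⁻¹ * y * g * (g⁻¹ * p * g) = g⁻¹ * (y * p) * g := by group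
    _ = g⁻¹ * (p * y) * g := by rw [hcomm]
    _ = g⁻¹ * p * g * (g⁻¹ * y * g) := by group
  classical
  letI := Fintype.ofFinite G
  have hym : ∀ a : G, a ∈ F.S ↔ y' * a * y'⁻¹ ∈ F.S := fun a => mem_normalizer_iff.mp hyx a
  let σ : Equiv.Perm (F.S : Subgroup G) :=
    (MulAut.conj y').toEquiv.subtypeEquiv fun a => hym a
  haveI : Fact (Nat.Prime 3) := ⟨Nat.prime_three⟩
  have hσ : σ ^ 3 ^ 1 = 1 := by
    refine Equiv.ext fun a => Subtype.ext ?_
    show ((σ ^ 3) a : G) = a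
    rw [pow_succ, pow_two, Equiv.Perm.mul_apply, Equiv.Perm.mul_apply]
    show y' * (y' * (y' * (a : G) * y'⁻¹) * y'⁻¹) * y'⁻¹ = a
    have h3 : y' * y' * y' = 1 := by rw [← pow_three', ← hy3, pow_orderOf_eq_one]
    calc y' * (y' * (y' * (a : G) * y'⁻¹) * y'⁻¹) * y'⁻¹
        = (y' * y' * y') * a * (y' * y' * y')⁻¹ := by group
    _ = a := by rw [h3]; group
  have hmod := Equiv.Perm.card_compl_support_modEq hσ
  rw [← Nat.card_eq_fintype_card, F.card_S] at hmod
  have h2 : 1 < σ.supportᶜ.card := by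
    have h3 : σ.supportᶜ.card % 3 = 2 := hmod
    omega
  obtain ⟨⟨a, haS⟩, ha, ha1⟩ := Finset.exists_mem_ne h2 1
  rw [Finset.mem_compl, Equiv.Perm.notMem_support] at ha
  have hya : y' * a * y'⁻¹ = a := congrArg Subtype.val ha
  have ha1' : a ≠ 1 := fun e => ha1 (Subtype.ext e)
  set W : Subgroup G := centralizer ({y'} : Set G) ⊓ (F.S : Subgroup G) with hW
  have haW : a ∈ W := mem_inf.mpr ⟨mem_centralizer_singleton_iff.mpr
    (mul_inv_eq_iff_eq_mul.mp hya).symm, haS⟩
  have hpW : ∀ b ∈ W, p' * b * p'⁻¹ ∈ W := by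
    intro b hb
    obtain ⟨h1, h3⟩ := mem_inf.mp hb
    refine mem_inf.mpr ⟨mem_centralizer_singleton_iff.mpr ?_, (mem_normalizer_iff.mp hpx b).mp h3⟩
    exact ((hc.symm.mul_left (show Commute b y' from mem_centralizer_singleton_iff.mp h1)).mul_left
      hc.symm.inv_left).eq
  have horb : ∀ i : ℕ, p' ^ i * a * (p' ^ i)⁻¹ ∈ W := by
    intro i
    induction i with
    | zero => simpa using haW
    | succ i ih =>
      rw [pow_succ', show p' * p' ^ i * a * (p' * p' ^ i)⁻¹ = p' * (p' ^ i * a * (p' ^ i)⁻¹) * p'⁻¹ by group]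
      exact hpW _ ih
  let f : Option (Fin 7) → W := fun o => match o with
    | none => 1
    | some i => ⟨p' ^ (i : ℕ) * a * (p' ^ (i : ℕ))⁻¹, horb i⟩
  have hsome : ∀ i : ℕ, p' ^ i * a * (p' ^ i)⁻¹ ≠ 1 := fun i e => ha1' (by
    calc a = (p' ^ i)⁻¹ * (p' ^ i * a * (p' ^ i)⁻¹) * p' ^ i := by group
    _ = 1 := by rw [e, mul_one, inv_mul_cancel])
  have hpC : p' * a ≠ a * p' := by
    intro hpa
    obtain ⟨n, hn, hn'⟩ := F.one_class a haS ha1'
    have h1 : n⁻¹ * p' * n ∈ centralizer ({F.J} : Set G) := mem_centralizer_singleton_iff.mpr (by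
      calc n⁻¹ * p' * n * F.J = n⁻¹ * (p' * (n * F.J * n⁻¹)) * n := by group
      _ = n⁻¹ * ((n * F.J * n⁻¹) * p') * n := by rw [hn', hpa]
      _ = F.J * (n⁻¹ * p' * n) := by group)
    have h4 : orderOf (n⁻¹ * p' * n) = 7 := by
      rw [show n⁻¹ * p' * n = n⁻¹ * p' * n⁻¹⁻¹ by rw [inv_inv]]
      rw [← hp7]; exact orderOf_injective (MulAut.conj n⁻¹).toMonoidHom (MulAut.conj n⁻¹).injective p'
    have h5 := Subgroup.orderOf_dvd_natCard _ h1
    rw [h4, F.card_C] at h5
    norm_num at h5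
  have hinj : ∀ i j : ℕ, i ≤ j → j < 7 → p' ^ i * a * (p' ^ i)⁻¹ = p' ^ j * a * (p' ^ j)⁻¹ → i = j := by
    intro i j hij hj heq
    by_contra hne
    apply hpC
    obtain ⟨d, rfl⟩ := Nat.exists_eq_add_of_le hij
    have h1 : p' ^ d * a = a * p' ^ d := by
      calc p' ^ d * a = (p' ^ i)⁻¹ * (p' ^ (i + d) * a * (p' ^ (i + d))⁻¹) * p' ^ i * p' ^ d := by
            rw [pow_add]; group
      _ = (p' ^ i)⁻¹ * (p' ^ i * a * (p' ^ i)⁻¹) * p' ^ i * p' ^ d := by rw [heq]
      _ = a * p' ^ d := by group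
    have hmem : p' ∈ zpowers (p' ^ d) := by
      rw [mem_zpowers_pow_iff, hp7]
      exact ((Nat.Prime.coprime_iff_not_dvd (by norm_num)).mpr fun h => by
        have := Nat.le_of_dvd (by omega) h; omega).symm
    obtain ⟨e, he⟩ := hmem
    rw [← he]
    exact ((show Commute (p' ^ d) a from h1).zpow_left e).eq
  have hf : Function.Injective f := by
    intro o o' h
    match o, o' with
    | none, none => rfl
    | none, some j => exact absurd (congrArg Subtype.val h).symm (hsome j)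
    | some i, none => exact absurd (congrArg Subtype.val h) (hsome i)
    | some i, some j =>
      have hv := congrArg Subtype.val h
      rcases le_total (i : ℕ) j with h1 | h1
      · rw [Fin.ext (hinj i j h1 j.2 hv)]
      · rw [Fin.ext (hinj j i h1 i.2 hv.symm)]
  have hW8 : 8 ≤ Nat.card W := by
    refine le_trans (le_of_eq ?_) (Nat.card_le_card_of_injective f hf)
    simp
  have hWS : W = (F.S : Subgroup G) :=
    Subgroup.eq_of_le_of_card_ge inf_le_right (by rw [F.card_S]; exact hW8)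
  have hyS : y' ∈ centralizer ((F.S : Subgroup G) : Set G) := by
    rw [mem_centralizer_iff]
    intro b hb
    rw [SetLike.mem_coe, ← hWS] at hb
    exact mem_centralizer_singleton_iff.mp (mem_inf.mp hb).1
  have h6 := F.sq y' (F.self hyS)
  have := orderOf_dvd_of_pow_eq_one (by rw [pow_two, h6] : y' ^ 2 = 1)
  rw [hy3] at this
  norm_num at this

include F in
theorem card_stab_dvd {x y : G ⧸ F.N} (hxy : x ≠ y) :
    Nat.card (MulAction.stabilizer G x ⊓ MulAction.stabilizer G y : Subgroup G) ∣ 21 := by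
  set D := MulAction.stabilizer G x ⊓ MulAction.stabilizer G y with hD
  have h1 : Nat.card D ∣ 8 * 21 := by
    refine (Subgroup.card_dvd_of_le inf_le_left).trans (dvd_of_eq ?_)
    induction x using QuotientGroup.induction_on with | _ g =>
    have : MulAction.stabilizer G (g : G ⧸ F.N) = F.N.map (MulAut.conj g).toMonoidHom := by
      ext k
      rw [MulAction.mem_stabilizer_iff, smul_mk_eq_iff, Subgroup.mem_map_equiv]
      show g⁻¹ * k * g ∈ F.N ↔ (MulAut.conj g).symm k ∈ F.N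
      rw [MulAut.conj_symm_apply]
    rw [this, Subgroup.card_map_of_injective (f := (MulAut.conj g).toMonoidHom) (MulAut.conj g).injective]
    exact F.card_N
  refine Nat.Coprime.dvd_of_dvd_mul_left ?_ h1
  rw [show (8 : ℕ) = 2 ^ 3 by norm_num]
  refine Nat.Coprime.pow_right 3 ?_
  rw [Nat.coprime_two_right]
  by_contra hodd
  rw [Nat.not_odd_iff_even, even_iff_two_dvd] at hodd
  haveI : Fact (Nat.Prime 2) := ⟨Nat.prime_two⟩
  obtain ⟨⟨t, htD⟩, ht⟩ := exists_prime_orderOf_dvd_card' 2 hodd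
  rw [Subgroup.orderOf_mk] at ht
  refine hxy (F.fixed_unique ?_ ?_ (mem_inf.mp htD).1 (mem_inf.mp htD).2)
  · rw [← pow_two, ← ht, pow_orderOf_eq_one]
  · intro e; rw [e, orderOf_one] at ht; norm_num at ht

theorem order_cases {D : Subgroup G} {x y : G ⧸ F.N} (hxy : x ≠ y)
    (hD : D = MulAction.stabilizer G x ⊓ MulAction.stabilizer G y) {d : G} (hd : d ∈ D) :
    d = 1 ∨ orderOf d = 3 ∨ orderOf d = 7 := by
  have h1 : orderOf d ∣ 21 := by
    refine dvd_trans ?_ (F.card_stab_dvd hxy)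
    rw [← hD]
    exact Subgroup.orderOf_dvd_natCard _ hd
  have h2 : orderOf d ∈ Nat.divisors 21 := Nat.mem_divisors.mpr ⟨h1, by norm_num⟩
  rw [show Nat.divisors 21 = {1, 3, 7, 21} by decide] at h2
  simp only [Finset.mem_insert, Finset.mem_singleton] at h2
  rcases h2 with h | h | h | h
  · exact Or.inl (orderOf_eq_one_iff.mp h)
  · exact Or.inr (Or.inl h)
  · exact Or.inr (Or.inr h)
  · exfalso
    subst hD
    obtain ⟨h3, -⟩ := mem_inf.mp hd
    refine F.not_commute (p := d ^ 3) (y := d ^ 7) ?_ ?_ (pow_mem h3 3) (pow_mem h3 7) ?_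
    · rw [orderOf_pow, h]; rfl
    · rw [orderOf_pow, h]; rfl
    · exact ((Commute.refl d).pow_pow 7 3).eq

/-- the involutions exchanging two points -/
def Sw (x y : G ⧸ F.N) : Type u := {t : Inv G // t.1 • x = y}

instance : Finite (Inv G) := Subtype.finite

instance {x y : G ⧸ F.N} : Finite (F.Sw x y) := Subtype.finite

theorem swap_symm {x y : G ⧸ F.N} {t : G} (ht : t * t = 1) (h : t • x = y) : t • y = x := by
  rw [← h, smul_smul, ht, one_smul]

theorem swap_bound {x y : G ⧸ F.N} (hxy : x ≠ y) :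
    Nat.card (F.Sw x y) ≤ 7 ∧ (Nat.card (F.Sw x y) = 7 →
      (∃ p : G, orderOf p = 7 ∧ p • x = x ∧ p • y = y) ∧
      ∀ q : G, orderOf q = 7 → q • x = x → q • y = y → ∀ t : F.Sw x y, t.1.1 * q * t.1.1 = q⁻¹) := by
  set D := MulAction.stabilizer G x ⊓ MulAction.stabilizer G y with hD
  have hcard := F.card_stab_dvd hxy
  rw [← hD] at hcard
  have hcard21 : Nat.card D ≤ 21 := Nat.le_of_dvd (by norm_num) hcard
  haveI : Fact (Nat.Prime 7) := ⟨by norm_num⟩
  -- an injection into the inverted elements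
  have main : ∀ t₀ : F.Sw x y, Nat.card (F.Sw x y) ≤
      Nat.card {d : G // d ∈ D ∧ t₀.1.1 * d * t₀.1.1 = d⁻¹} := by
    rintro ⟨⟨s, hs, hs1⟩, hsx⟩
    let f : F.Sw x y → {d : G // d ∈ D ∧ s * d * s = d⁻¹} := fun t =>
      ⟨s * t.1.1, mem_inf.mpr ⟨by
          show (s * t.1.1) • x = x
          rw [mul_smul, t.2, F.swap_symm hs hsx], by
          show (s * t.1.1) • y = y
          rw [mul_smul, F.swap_symm t.1.2.1 t.2, hsx]⟩, by
        rw [mul_inv_rev, inv_eq_of_mul_eq_one_right t.1.2.1, inv_eq_of_mul_eq_one_right hs, ← mul_assoc,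
          hs, one_mul]⟩
    exact Nat.card_le_card_of_injective f fun a b h =>
      Subtype.ext (Subtype.ext (mul_left_cancel (congrArg Subtype.val h)))
  rcases isEmpty_or_nonempty (F.Sw x y) with hE | ⟨⟨t₀⟩⟩
  · rw [Nat.card_of_isEmpty]
    exact ⟨by norm_num, fun h => by norm_num at h⟩
  by_cases h7 : 7 ∣ Nat.card D
  · obtain ⟨⟨p, hpD⟩, hp⟩ := exists_prime_orderOf_dvd_card' 7 h7
    rw [Subgroup.orderOf_mk] at hp
    have hP : ∀ q ∈ D, orderOf q = 7 → q ∈ zpowers p := fun q hq hq7 =>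
      mem_zpowers_of_card_lt (lt_of_le_of_lt hcard21 (by norm_num)) hpD hq hp hq7
    have hinvP : ∀ t : F.Sw x y, ∀ d, d ∈ D → t.1.1 * d * t.1.1 = d⁻¹ → d ∈ zpowers p := by
      rintro ⟨⟨s, hs, hs1⟩, hsx⟩ d hd hinv
      dsimp only at hinv
      rcases F.order_cases hxy hD hd with h | h | h
      · rw [h]; exact one_mem _
      · exfalso
        have si : s⁻¹ = s := inv_eq_of_mul_eq_one_right hs
        obtain ⟨hpx, hpy⟩ := mem_inf.mp hpD
        obtain ⟨hdx, hdy⟩ := mem_inf.mp hd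
        have hspD : s * p * s ∈ D := mem_inf.mpr ⟨by
          show (s * p * s) • x = x
          rw [mul_smul, mul_smul, hsx, hpy, F.swap_symm hs hsx], by
          show (s * p * s) • y = y
          rw [mul_smul, mul_smul, F.swap_symm hs hsx, hpx, hsx]⟩
        have hsp7 : orderOf (s * p * s) = 7 := by
          rw [show s * p * s = s * p * s⁻¹ by rw [si]]
          rw [← hp]; exact orderOf_injective (MulAut.conj s).toMonoidHom (MulAut.conj s).injective p
        have hdpD : d * p * d⁻¹ ∈ D := mul_mem (mul_mem hd hpD) (inv_mem hd)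
        have hdp7 : orderOf (d * p * d⁻¹) = 7 := by
          rw [← hp]; exact orderOf_injective (MulAut.conj d).toMonoidHom (MulAut.conj d).injective p
        obtain ⟨i, hi⟩ := hP _ hspD hsp7
        obtain ⟨j, hj⟩ := hP _ hdpD hdp7
        change p ^ i = s * p * s at hi
        change p ^ j = d * p * d⁻¹ at hj
        have e1 : d * (s * p * s) * d⁻¹ = s * (d * p * d⁻¹) * s := by
          calc d * (s * p * s) * d⁻¹ = d * p ^ i * d⁻¹ := by rw [hi]
          _ = (d * p * d⁻¹) ^ i := conj_zpow.symm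
          _ = (p ^ i) ^ j := by rw [← hj, ← zpow_mul, ← zpow_mul, mul_comm]
          _ = (s * p * s⁻¹) ^ j := by rw [si, hi]
          _ = s * (d * p * d⁻¹) * s := by rw [conj_zpow, si, hj]
        have e2 : s * (d * p * d⁻¹) * s = d⁻¹ * (s * p * s) * d := by
          calc s * (d * p * d⁻¹) * s = (s * d * s⁻¹) * (s * p * s⁻¹) * (s * d * s⁻¹)⁻¹ * (s * s) := by group
          _ = d⁻¹ * (s * p * s) * d := by rw [si, hs, hinv, mul_one, inv_inv]
        refine F.not_commute hsp7 (?_ : orderOf (d ^ 2) = 3) (mem_inf.mp hspD).1 (pow_mem hdx 2) ?_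
        · rw [orderOf_pow, h]; rfl
        · calc d ^ 2 * (s * p * s) = d * (d * (s * p * s) * d⁻¹) * d := by rw [pow_two]; group
          _ = d * (d⁻¹ * (s * p * s) * d) * d := by rw [e1, e2]
          _ = s * p * s * d ^ 2 := by rw [pow_two]; group
      · exact hP d hd h
    have hle : ∀ t : F.Sw x y, Nat.card {d : G // d ∈ D ∧ t.1.1 * d * t.1.1 = d⁻¹} ≤ 7 := by
      intro t
      let f : {d : G // d ∈ D ∧ t.1.1 * d * t.1.1 = d⁻¹} → zpowers p := fun d => ⟨d.1, hinvP t d.1 d.2.1 d.2.2⟩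
      refine (Nat.card_le_card_of_injective f fun a b h => Subtype.ext (congrArg (fun z : zpowers p => (z : G)) h)).trans
        (le_of_eq ?_)
      rw [Nat.card_zpowers, hp]
    refine ⟨(main t₀).trans (hle t₀), fun h7' => ⟨⟨p, hp, (mem_inf.mp hpD).1, (mem_inf.mp hpD).2⟩, ?_⟩⟩
    intro q hq hqx hqy t
    let f : {d : G // d ∈ D ∧ t.1.1 * d * t.1.1 = d⁻¹} → zpowers p := fun d => ⟨d.1, hinvP t d.1 d.2.1 d.2.2⟩
    have hf : Function.Injective f :=
      fun a b h => Subtype.ext (congrArg (fun z : zpowers p => (z : G)) h)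
    have hsurj : Function.Surjective f := by
      refine ((Nat.bijective_iff_injective_and_card f).mpr ⟨hf, le_antisymm
        (Nat.card_le_card_of_injective f hf) ?_⟩).2
      rw [Nat.card_zpowers, hp, ← h7']
      exact main t
    obtain ⟨d, hd⟩ := hsurj ⟨q, hP q (mem_inf.mpr ⟨hqx, hqy⟩) hq⟩
    have : d.1 = q := congrArg Subtype.val hd
    rw [← this]
    exact d.2.2
  · have hD3 : Nat.card D ≤ 3 := by
      have h2 : Nat.card D ∈ Nat.divisors 21 := Nat.mem_divisors.mpr ⟨hcard, by norm_num⟩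
      rw [show Nat.divisors 21 = {1, 3, 7, 21} by decide] at h2
      simp only [Finset.mem_insert, Finset.mem_singleton] at h2
      rcases h2 with h | h | h | h
      · omega
      · omega
      · exact absurd (by rw [h]) h7
      · exact absurd (by rw [h]; norm_num) h7
    have h4 : Nat.card (F.Sw x y) ≤ 3 := by
      refine ((main t₀).trans ?_).trans hD3
      exact Nat.card_le_card_of_injective (fun d => (⟨d.1, d.2.1⟩ : D))
        fun a b h => Subtype.ext (congrArg (fun z : D => (z : G)) h)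
    exact ⟨by omega, fun h => by omega⟩

theorem swap_card {x y : G ⧸ F.N} (hxy : x ≠ y) : Nat.card (F.Sw x y) = 7 := by
  classical
  letI := Fintype.ofFinite (G ⧸ F.N)
  letI := Fintype.ofFinite (Inv G)
  set A : Finset (Inv G × (G ⧸ F.N)) := Finset.univ.filter fun p => p.1.1 • p.2 ≠ p.2 with hA
  have hmaps : ∀ p ∈ A, (p.2, p.1.1 • p.2) ∈ (Finset.univ : Finset (G ⧸ F.N)).offDiag := by
    intro p hp
    rw [hA, Finset.mem_filter] at hp
    exact Finset.mem_offDiag.mpr ⟨Finset.mem_univ _, Finset.mem_univ _, Ne.symm hp.2⟩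
  have h1 := Finset.card_eq_sum_card_fiberwise hmaps
  have hfib : ∀ q ∈ (Finset.univ : Finset (G ⧸ F.N)).offDiag,
      (A.filter fun p => (p.2, p.1.1 • p.2) = q).card = Nat.card (F.Sw q.1 q.2) := by
    rintro ⟨a, b⟩ hq
    have hab : a ≠ b := (Finset.mem_offDiag.mp hq).2.2
    letI := Fintype.ofFinite (F.Sw a b)
    rw [Nat.card_eq_fintype_card, ← Finset.card_univ]
    symm
    refine Finset.card_bij (fun (t : F.Sw a b) _ => (t.1, a)) ?_ ?_ ?_
    · intro t _
      rw [Finset.mem_filter, hA, Finset.mem_filter]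
      exact ⟨⟨Finset.mem_univ _, by show t.1.1 • a ≠ a; rw [t.2]; exact hab.symm⟩,
        Prod.ext rfl t.2⟩
    · intro t _ u _ h
      exact Subtype.ext (congrArg Prod.fst h)
    · intro p hp
      rw [Finset.mem_filter] at hp
      obtain ⟨-, h2⟩ := hp
      have h3 : p.2 = a := congrArg Prod.fst h2
      refine ⟨⟨p.1, ?_⟩, Finset.mem_univ _, Prod.ext rfl h3.symm⟩
      have h4 := congrArg Prod.snd h2
      rw [h3] at h4
      exact h4
  rw [Finset.sum_congr rfl hfib] at h1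
  have hAc : A.card = Fintype.card (Inv G) * (Fintype.card (G ⧸ F.N) - 1) := by
    rw [hA, Finset.card_filter, Fintype.sum_prod_type]
    rw [← Finset.card_univ (α := Inv G), ← smul_eq_mul, ← Finset.sum_const]
    refine Finset.sum_congr rfl fun t _ => ?_
    rw [← Finset.card_filter]
    obtain ⟨g, hg⟩ := F.conj_J t.2.1 t.2.2
    have hfix : t.1 • (g : G ⧸ F.N) = (g : G ⧸ F.N) := (smul_mk_eq_iff _ _).mpr (by
      rw [← hg, show g⁻¹ * (g * F.J * g⁻¹) * g = F.J by group]; exact F.S_le F.mem)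
    have : (Finset.univ.filter fun z : G ⧸ F.N => t.1 • z ≠ z) = Finset.univ.erase (g : G ⧸ F.N) := by
      ext z
      simp only [Finset.mem_filter, Finset.mem_univ, true_and, Finset.mem_erase, and_true]
      exact ⟨fun h e => h (e ▸ hfix), fun h e => h (F.fixed_unique t.2.1 t.2.2 e hfix)⟩
    rw [this, Finset.card_erase_of_mem (Finset.mem_univ _), Finset.card_univ]
  have hoff : (Finset.univ : Finset (G ⧸ F.N)).offDiag.card =
      Fintype.card (G ⧸ F.N) * (Fintype.card (G ⧸ F.N) - 1) := by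
    rw [Finset.offDiag_card, Finset.card_univ, Nat.mul_sub, mul_one]
  have hI := F.card_involutions
  rw [Nat.card_eq_fintype_card, Nat.card_eq_fintype_card] at hI
  have heq : ∑ q ∈ (Finset.univ : Finset (G ⧸ F.N)).offDiag, Nat.card (F.Sw q.1 q.2) =
      ∑ q ∈ (Finset.univ : Finset (G ⧸ F.N)).offDiag, 7 := by
    rw [← h1, hAc, hI, Finset.sum_const, hoff, smul_eq_mul]
    ring
  have := (Finset.sum_eq_sum_iff_of_le fun q hq =>
    (F.swap_bound (Finset.mem_offDiag.mp hq).2.2).1).mp heq (x, y)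
    (Finset.mem_offDiag.mpr ⟨Finset.mem_univ _, Finset.mem_univ _, hxy⟩)
  exact this

end Four

end CfsgLib.TwoAlt
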