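import Cfsg.Agent.TwoAlt.Centralizer

/-!
An involution with centralizer `2 × A₄` and no subgroup of index two.
-/

set_option autoImplicit false
set_option linter.style.haveILetI false

namespace CfsgLib.TwoAlt

open Subgroup

universe u

/-- The local data: an elementary abelian Sylow subgroup of order eight with one class of involutions. -/
structure Four (G : Type u) [Group G] where
  /-- the Sylow subgroup -/
  S : Sylow 2 G
  /-- the involution -/
  J : G
  mem : J ∈ S
  ne : J ≠ 1
  card_S : Nat.card (S : Subgroup G) = 8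
  sq : ∀ a ∈ S, a * a = 1
  self : centralizer ((S : Subgroup G) : Set G) ≤ S
  card_C : Nat.card (centralizer ({J} : Set G)) = 24
  cent_le : centralizer ({J} : Set G) ≤ normalizer ((S : Subgroup G) : Set G)
  card_N : Nat.card (normalizer ((S : Subgroup G) : Set G)) = 168
  one_class : ∀ a ∈ S, a ≠ 1 → ∃ n ∈ normalizer ((S : Subgroup G) : Set G), n * J * n⁻¹ = a

theorem alt_four : ∀ x y : alternatingGroup (Fin 4), x * x = 1 → y * y = 1 → (x * y) * (x * y) = 1 := by
  decide +kernel

theorem alt_four_conj : ∀ x y : alternatingGroup (Fin 4), x * x = 1 → y * y = 1 → x ≠ 1 → y ≠ 1 →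
    ∃ z, z * x * z⁻¹ = y := by
  decide +kernel

theorem alt_four_self' : ∀ x v : alternatingGroup (Fin 4),
    ¬(v * v = 1) ∨ v = 1 ∨ ¬(x * v = v * x) ∨ x * x = 1 := by
  decide +kernel

theorem alt_four_self (x v : alternatingGroup (Fin 4)) (h1 : v * v = 1) (h2 : v ≠ 1) (h3 : x * v = v * x) :
    x * x = 1 := by
  rcases alt_four_self' x v with h | h | h | h
  · exact absurd h1 h
  · exact absurd h h2
  · exact absurd h3 h
  · exact h

theorem alt_four_card :
    Fintype.card {x : alternatingGroup (Fin 4) // x * x = 1} = 4 ∧ Fintype.card (alternatingGroup (Fin 4)) = 12 := by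
  decide +kernel

theorem alt_four_exists : ∃ x : alternatingGroup (Fin 4), x * x = 1 ∧ x ≠ 1 := by decide +kernel

variable {G : Type u} [Group G] [Finite G]

theorem exists_four {J : G} {T : Subgroup G} (h : Split J T) (hJ : Cfsg.IsTwoCentralInvolution J)
    (e : T ≃* alternatingGroup (Fin 4)) (h2 : ∀ N : Subgroup G, N.Normal → N.index ≠ 2) :
    ∃ F : Four G, F.J = J := by
  classical
  haveI : Fact (Nat.Prime 2) := ⟨Nat.prime_two⟩
  obtain ⟨-, P, hJP, hPJ⟩ := hJ
  set C := centralizer ({J} : Set G) with hC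
  have hTC : T ≤ C := h.prod.2.1
  have hTsq : ∀ {x : G} (hx : x ∈ T), x * x = 1 ↔ e ⟨x, hx⟩ * e ⟨x, hx⟩ = 1 := by
    intro x hx
    rw [← map_mul, MulEquiv.map_eq_one_iff]
    exact ⟨fun e => Subtype.ext e, fun e => congrArg Subtype.val e⟩
  have hJx : ∀ x ∈ T, (J * x) * (J * x) = x * x := by
    intro x hx
    calc (J * x) * (J * x) = J * (x * J) * x := by group
    _ = (J * J) * (x * x) := by rw [h.comm hx]; group
    _ = x * x := by rw [h.sq, one_mul]
  have hmul : ∀ x ∈ T, ∀ y ∈ T, x * x = 1 → y * y = 1 → (x * y) * (x * y) = 1 := by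
    intro x hx y hy h1 h2
    rw [hTsq (mul_mem hx hy)]
    rw [hTsq hx] at h1; rw [hTsq hy] at h2
    rw [show e ⟨x * y, mul_mem hx hy⟩ = e ⟨x, hx⟩ * e ⟨y, hy⟩ from map_mul e ⟨x, hx⟩ ⟨y, hy⟩]
    exact alt_four _ _ h1 h2
  let S0 : Subgroup G :=
    { carrier := {c | c * J = J * c ∧ c * c = 1}
      one_mem' := by simp
      inv_mem' := by
        rintro c ⟨h1, h2⟩
        rw [inv_eq_of_mul_eq_one_right h2]
        exact ⟨h1, h2⟩
      mul_mem' := by
        rintro c d ⟨hc, hc2⟩ ⟨hd, hd2⟩
        refine ⟨by rw [mul_assoc, hd, ← mul_assoc, hc, mul_assoc], ?_⟩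
        obtain ⟨x, hx, hcx⟩ := h.split hc
        obtain ⟨y, hy, hdy⟩ := h.split hd
        have hx2 : x * x = 1 := by
          rcases hcx with rfl | rfl
          · exact hc2
          · rwa [hJx x hx] at hc2
        have hy2 : y * y = 1 := by
          rcases hdy with rfl | rfl
          · exact hd2
          · rwa [hJx y hy] at hd2
        have hxy := hmul x hx y hy hx2 hy2
        rcases hcx with rfl | rfl <;> rcases hdy with rfl | rfl
        · exact hxy
        · rw [show c * (J * y) = J * (c * y) by rw [← mul_assoc, h.comm hx, mul_assoc], hJx _ (mul_mem hx hy)]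
          exact hxy
        · rw [show J * x * d = J * (x * d) from mul_assoc _ _ _, hJx _ (mul_mem hx hy)]; exact hxy
        · rw [show J * x * (J * y) = (J * J) * (x * y) by rw [← mul_assoc, mul_assoc J x J, h.comm hx]; group,
            h.sq, one_mul]
          exact hxy }
  have hS0 : ∀ c, c ∈ S0 ↔ c * J = J * c ∧ c * c = 1 := fun c => Iff.rfl
  have hS0C : S0 ≤ C := fun c hc => mem_centralizer_singleton_iff.mpr hc.1
  -- the order of the centralizer
  have hsplit2 : ∀ x ∈ T, J * x ∉ T := fun x hx hc => h.not_mem (by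
    have := mul_mem hc (inv_mem hx); rwa [mul_inv_cancel_right] at this)
  have hcardS : Nat.card S0 = 8 := by
    let f : Bool × {x : alternatingGroup (Fin 4) // x * x = 1} → S0 := fun p =>
      ⟨(if p.1 then J else 1) * (e.symm p.2.1 : G), by
        have hx : ((e.symm p.2.1 : T) : G) * (e.symm p.2.1 : T) = 1 := by
          rw [← Subgroup.coe_mul, ← map_mul, p.2.2, map_one, OneMemClass.coe_one]
        refine mul_mem ?_ ((hS0 _).mpr ⟨h.comm (e.symm p.2.1).2, hx⟩)
        split_ifs
        · exact (hS0 J).mpr ⟨rfl, h.sq⟩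
        · exact one_mem _⟩
    have hf : Function.Bijective f := by
      constructor
      · rintro ⟨a, x⟩ ⟨b, y⟩ hxy
        have hv : (if a then J else 1) * (e.symm x.1 : G) = (if b then J else 1) * (e.symm y.1 : G) :=
          congrArg Subtype.val hxy
        cases a <;> cases b <;> simp at hv ⊢
        · exact Subtype.ext hv
        · exact absurd (hv ▸ (e.symm x.1).2) (hsplit2 _ (e.symm y.1).2)
        · exact absurd (hv ▸ (e.symm y.1).2) (hsplit2 _ (e.symm x.1).2)
        · exact Subtype.ext hv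
      · rintro ⟨c, hc⟩
        obtain ⟨x, hx, hcx⟩ := h.split hc.1
        have hx2 : e ⟨x, hx⟩ * e ⟨x, hx⟩ = 1 := by
          rw [← hTsq hx]
          rcases hcx with rfl | rfl
          · exact hc.2
          · rw [← hJx x hx]; exact hc.2
        rcases hcx with rfl | rfl
        · exact ⟨(false, ⟨e ⟨c, hx⟩, hx2⟩), Subtype.ext (by simp [f])⟩
        · exact ⟨(true, ⟨e ⟨x, hx⟩, hx2⟩), Subtype.ext (by simp [f])⟩
    rw [← Nat.card_eq_of_bijective f hf, Nat.card_prod, Nat.card_eq_fintype_card (α := Bool),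
      Nat.card_eq_fintype_card, alt_four_card.1, Fintype.card_bool]
  have hcardC : Nat.card C = 24 := by
    let f : Bool × alternatingGroup (Fin 4) → C := fun p =>
      ⟨(if p.1 then J else 1) * (e.symm p.2 : G), by
        refine mul_mem ?_ (hTC (e.symm p.2).2)
        split_ifs
        · exact h.prod.1 (mem_zpowers J)
        · exact one_mem _⟩
    have hf : Function.Bijective f := by
      constructor
      · rintro ⟨a, x⟩ ⟨b, y⟩ hxy
        have hv : (if a then J else 1) * (e.symm x : G) = (if b then J else 1) * (e.symm y : G) :=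
          congrArg Subtype.val hxy
        cases a <;> cases b <;> simp at hv ⊢
        · exact hv
        · exact absurd (hv ▸ (e.symm x).2) (hsplit2 _ (e.symm y).2)
        · exact absurd (hv ▸ (e.symm y).2) (hsplit2 _ (e.symm x).2)
        · exact hv
      · rintro ⟨c, hc⟩
        obtain ⟨x, hx, rfl | rfl⟩ := h.split (mem_centralizer_singleton_iff.mp hc)
        · exact ⟨(false, e ⟨c, hx⟩), Subtype.ext (by simp [f])⟩
        · exact ⟨(true, e ⟨x, hx⟩), Subtype.ext (by simp [f])⟩
    rw [← Nat.card_eq_of_bijective f hf, Nat.card_prod, Nat.card_eq_fintype_card (α := Bool),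
      Nat.card_eq_fintype_card, alt_four_card.2, Fintype.card_bool]
  have hP8 : Nat.card (P : Subgroup G) = 8 := by
    obtain ⟨j, hj⟩ := IsPGroup.iff_card.mp P.2
    obtain ⟨R, hR⟩ := (IsPGroup.of_card (p := 2) (n := 3) hcardS).exists_le_sylow
    have h1 : 8 ≤ Nat.card (P : Subgroup G) := by
      rw [P.card_eq_multiplicity, ← R.card_eq_multiplicity, ← hcardS]
      exact Subgroup.card_le_of_le hR
    have h3 : Nat.card (P : Subgroup G) ∣ 24 :=
      hcardC ▸ Subgroup.card_dvd_of_le fun x hx => mem_centralizer_singleton_iff.mpr (hPJ x hx)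
    rw [hj] at h1 h3 ⊢
    rcases lt_or_ge j 4 with h4 | h4
    · interval_cases j <;> omega
    · exact absurd ((pow_dvd_pow 2 h4).trans h3) (by norm_num)
  let S : Sylow 2 G := Sylow.ofCard S0 (by rw [hcardS, ← hP8, P.card_eq_multiplicity])
  have hSco : (S : Subgroup G) = S0 := rfl
  have hJS : J ∈ S0 := ⟨rfl, h.sq⟩
  have hCN : C ≤ normalizer (S0 : Set G) := by
    intro c hc
    rw [mem_centralizer_singleton_iff] at hc
    have hone : ∀ d : G, d * J = J * d → ∀ y ∈ S0, d * y * d⁻¹ ∈ S0 := by
      rintro d hd y ⟨h1, h2⟩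
      refine ⟨mem_centralizer_singleton_iff.mp (mul_mem (mul_mem (mem_centralizer_singleton_iff.mpr hd)
        (mem_centralizer_singleton_iff.mpr h1)) (inv_mem (mem_centralizer_singleton_iff.mpr hd))), ?_⟩
      rw [show d * y * d⁻¹ * (d * y * d⁻¹) = d * (y * y) * d⁻¹ by group, h2, mul_one, mul_inv_cancel]
    rw [mem_normalizer_iff]
    refine fun y => ⟨hone c hc y, fun hy => ?_⟩
    have := hone c⁻¹ (show Commute c J from hc).inv_left.eq _ hy
    rwa [show c⁻¹ * (c * y * c⁻¹) * c⁻¹⁻¹ = y by group] at this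
  have hself : centralizer (S0 : Set G) ≤ S0 := by
    intro c hc
    have hcJ : c * J = J * c := (mem_centralizer_iff.mp hc J hJS).symm
    obtain ⟨v0, hv2, hv1⟩ := alt_four_exists
    set v : G := ((e.symm v0 : T) : G) with hv
    have hvT : v ∈ T := (e.symm v0).2
    have hvS : v ∈ S0 := ⟨h.comm hvT, by
      rw [hv, ← Subgroup.coe_mul, ← map_mul, hv2, map_one, OneMemClass.coe_one]⟩
    have hcv := mem_centralizer_iff.mp hc v hvS
    obtain ⟨x, hx, hcx⟩ := h.split hcJ
    have hxv : x * v = v * x := by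
      rcases hcx with rfl | rfl
      · exact hcv.symm
      · rw [← mul_assoc, h.comm hvT, mul_assoc, mul_assoc] at hcv
        exact (mul_left_cancel hcv).symm
    have hx2 : x * x = 1 := by
      rw [hTsq hx]
      refine alt_four_self _ v0 hv2 hv1 ?_
      have := congrArg e (Subtype.ext hxv : (⟨x, hx⟩ : T) * ⟨v, hvT⟩ = ⟨v, hvT⟩ * ⟨x, hx⟩)
      rw [map_mul, map_mul, show (⟨v, hvT⟩ : T) = e.symm v0 from rfl, MulEquiv.apply_symm_apply] at this
      exact this
    refine ⟨hcJ, ?_⟩
    rcases hcx with rfl | rfl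
    · exact hx2
    · rw [hJx x hx]; exact hx2
  haveI hcomm : IsMulCommutative (S : Subgroup G) := ⟨⟨fun a b => by
    have hi : ∀ y : (S : Subgroup G), y⁻¹ = y := fun y =>
      inv_eq_of_mul_eq_one_right (Subtype.ext y.2.2)
    calc a * b = (a * b)⁻¹ := (hi _).symm
    _ = b⁻¹ * a⁻¹ := mul_inv_rev a b
    _ = b * a := by rw [hi, hi]⟩⟩
  -- fusion
  set N := normalizer (S0 : Set G) with hN
  set K := C.subgroupOf N with hK
  set W : Set G := {a | a ∈ S0 ∧ ∃ g : G, g * J * g⁻¹ = a} with hW
  have hWN : ∀ a ∈ W, ∃ n ∈ N, n * J * n⁻¹ = a := by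
    rintro a ⟨ha, g, rfl⟩
    obtain ⟨n, hn, hn'⟩ := Sylow.conj_eq_normalizer_conj_of_mem S J g⁻¹ hJS (by rw [inv_inv]; exact ha)
    rw [inv_inv] at hn'
    exact ⟨n⁻¹, inv_mem hn, by rw [inv_inv]; exact hn'.symm⟩
  have hWcard : Nat.card W = K.index := by
    let f : N ⧸ K → W := fun q => Quotient.liftOn' q
      (fun n => (⟨(n : G) * J * (n : G)⁻¹, (mem_normalizer_iff.mp n.2 J).mp hJS, n, rfl⟩ : W))
      (fun m n hmn => by
        rw [QuotientGroup.leftRel_apply, hK, mem_subgroupOf, hC, mem_centralizer_singleton_iff] at hmn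
        push_cast at hmn
        refine Subtype.ext ?_
        show (m : G) * J * (m : G)⁻¹ = (n : G) * J * (n : G)⁻¹
        calc (m : G) * J * (m : G)⁻¹ = (m : G) * (J * ((m : G)⁻¹ * (n : G))) * (n : G)⁻¹ := by group
        _ = (m : G) * (((m : G)⁻¹ * (n : G)) * J) * (n : G)⁻¹ := by rw [hmn]
        _ = (n : G) * J * (n : G)⁻¹ := by group)
    refine (Nat.card_eq_of_bijective f ⟨?_, ?_⟩).symm
    · intro p q hpq
      induction p using QuotientGroup.induction_on with | _ m =>
      induction q using QuotientGroup.induction_on with | _ n =>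
      have hv : (m : G) * J * (m : G)⁻¹ = (n : G) * J * (n : G)⁻¹ := congrArg Subtype.val hpq
      rw [QuotientGroup.eq, hK, mem_subgroupOf, hC, mem_centralizer_singleton_iff]
      push_cast
      calc (m : G)⁻¹ * (n : G) * J = (m : G)⁻¹ * ((n : G) * J * (n : G)⁻¹) * (n : G) := by group
      _ = (m : G)⁻¹ * ((m : G) * J * (m : G)⁻¹) * (n : G) := by rw [hv]
      _ = J * ((m : G)⁻¹ * (n : G)) := by group
    · rintro ⟨a, ha⟩
      obtain ⟨n, hn, hna⟩ := hWN a ha
      exact ⟨QuotientGroup.mk (⟨n, hn⟩ : N), Subtype.ext hna⟩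
  have hodd : ¬ 2 ∣ K.index := by
    intro h2d
    apply S.not_dvd_index
    have h1 : (S : Subgroup G).relIndex N ∣ (S : Subgroup G).index :=
      Subgroup.relIndex_dvd_index_of_le le_normalizer
    refine dvd_trans ?_ h1
    have h4 : (S : Subgroup G).subgroupOf N ≤ K := fun y hy => by
      rw [hK, mem_subgroupOf]; exact hS0C hy
    exact h2d.trans (Subgroup.index_dvd_of_le h4)
  -- all three involutions of `T` in `S0` are conjugates of `J`
  obtain ⟨g, hg⟩ : ∃ g : G, g * J * g⁻¹ ∈ T := by
    by_contra hno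
    push Not at hno
    obtain ⟨M, hM1, hM2⟩ := h.exists_index_two hJP hPJ hno
    exact h2 M hM1 hM2
  have hTW : ∀ x ∈ T, x * x = 1 → x ≠ 1 → x ∈ W := by
    intro x hx hx2 hx1
    have hgJ2 : (g * J * g⁻¹) * (g * J * g⁻¹) = 1 := by
      rw [show g * J * g⁻¹ * (g * J * g⁻¹) = g * (J * J) * g⁻¹ by group, h.sq, mul_one, mul_inv_cancel]
    have hgJ1 : g * J * g⁻¹ ≠ 1 := fun e => h.ne (by
      calc J = g⁻¹ * (g * J * g⁻¹) * g := by group
      _ = 1 := by rw [e, mul_one, inv_mul_cancel])
    obtain ⟨z, hz⟩ := alt_four_conj (e ⟨_, hg⟩) (e ⟨x, hx⟩) ((hTsq hg).mp hgJ2) ((hTsq hx).mp hx2)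
      (fun e' => hgJ1 (congrArg Subtype.val (e.map_eq_one_iff.mp e')))
      (fun e' => hx1 (congrArg Subtype.val (e.map_eq_one_iff.mp e')))
    have hz' := congrArg (fun w => ((e.symm w : T) : G)) hz
    simp only [map_mul, map_inv, MulEquiv.symm_apply_apply, Subgroup.coe_mul, Subgroup.coe_inv] at hz'
    exact ⟨⟨h.comm hx, hx2⟩, (e.symm z : T) * g, by rw [← hz']; group⟩
  have hW7 : ∀ a ∈ S0, a ≠ 1 → a ∈ W := by
    intro a ha ha1
    obtain ⟨x, hx, rfl | rfl⟩ := h.split ha.1
    · exact hTW _ hx ha.2 ha1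
    · by_contra haW
      have hx2 : x * x = 1 := (hJx x hx).symm.trans ha.2
      by_cases hx1 : x = 1
      · apply haW
        rw [hx1, mul_one]
        exact ⟨hJS, 1, by rw [one_mul, inv_one, mul_one]⟩
      -- otherwise exactly four conjugates
      have hno : ∀ y ∈ T, y * y = 1 → y ≠ 1 → J * y ∉ W := by
        intro y hy hy2 hy1 hyW
        obtain ⟨z, hz⟩ := alt_four_conj (e ⟨y, hy⟩) (e ⟨x, hx⟩) ((hTsq hy).mp hy2) ((hTsq hx).mp hx2)
          (fun e' => hy1 (congrArg Subtype.val (e.map_eq_one_iff.mp e')))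
          (fun e' => hx1 (congrArg Subtype.val (e.map_eq_one_iff.mp e')))
        have hz' := congrArg (fun w => ((e.symm w : T) : G)) hz
        simp only [map_mul, map_inv, MulEquiv.symm_apply_apply, Subgroup.coe_mul, Subgroup.coe_inv] at hz'
        obtain ⟨-, k, hk⟩ := hyW
        refine haW ⟨ha, (e.symm z : T) * k, ?_⟩
        calc (e.symm z : T) * k * J * ((e.symm z : T) * k)⁻¹
            = ((e.symm z : T) : G) * (k * J * k⁻¹) * ((e.symm z : T) : G)⁻¹ := by group
        _ = ((e.symm z : T) : G) * J * (y * ((e.symm z : T) : G)⁻¹) := by rw [hk]; group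
        _ = J * ((e.symm z : T) * y * ((e.symm z : T) : G)⁻¹) := by rw [h.comm (e.symm z).2]; group
        _ = J * x := by rw [hz']
      have h4 : Nat.card W = 4 := by
        let f : {y : alternatingGroup (Fin 4) // y * y = 1} → W := fun y =>
          if hy : y.1 = 1 then ⟨J, hJS, 1, by rw [one_mul, inv_one, mul_one]⟩
          else ⟨(e.symm y.1 : G), hTW _ (e.symm y.1).2 (by
              rw [← Subgroup.coe_mul, ← map_mul, y.2, map_one, OneMemClass.coe_one])
            (fun e' => hy (e.symm.map_eq_one_iff.mp (Subtype.ext e')))⟩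
        have hf : Function.Bijective f := by
          constructor
          · intro y z hyz
            have hv := congrArg Subtype.val hyz
            simp only [f] at hv
            by_cases h1 : y.1 = 1 <;> by_cases h3 : z.1 = 1 <;> simp [h1, h3] at hv
            · exact Subtype.ext (h1.trans h3.symm)
            · exact absurd (hv ▸ (e.symm z.1).2) h.not_mem
            · exact absurd (hv ▸ (e.symm y.1).2) h.not_mem
            · exact Subtype.ext hv
          · rintro ⟨w, hw⟩
            obtain ⟨y, hy, rfl | rfl⟩ := h.split hw.1.1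
            · have hy1 : w ≠ 1 := by
                rintro rfl
                obtain ⟨-, k, hk⟩ := hw
                exact h.ne (by calc J = k⁻¹ * (k * J * k⁻¹) * k := by group
                  _ = 1 := by rw [hk, mul_one, inv_mul_cancel])
              refine ⟨⟨e ⟨w, hy⟩, (hTsq hy).mp hw.1.2⟩, Subtype.ext ?_⟩
              have hne : ¬ e ⟨w, hy⟩ = 1 := fun e' => hy1 (congrArg Subtype.val (e.map_eq_one_iff.mp e'))
              simp [f, hne]
            · by_cases hy1 : y = 1
              · subst hy1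
                refine ⟨⟨1, one_mul 1⟩, Subtype.ext ?_⟩
                simp [f]
              · exact absurd hw (hno y hy ((hJx y hy).symm.trans hw.1.2) hy1)
        rw [← Nat.card_eq_of_bijective f hf, Nat.card_eq_fintype_card, alt_four_card.1]
      exact hodd (by rw [← hWcard, h4]; norm_num)
  have hW7c : Nat.card W = 7 := by
    have hWS : W = (S0 : Set G) \ {1} := by
      ext a
      refine ⟨fun ha => ⟨ha.1, fun e' => ?_⟩, fun ha => hW7 a ha.1 ha.2⟩
      obtain ⟨-, k, hk⟩ := ha
      rw [Set.mem_singleton_iff] at e'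
      exact h.ne (by calc J = k⁻¹ * (k * J * k⁻¹) * k := by group
        _ = 1 := by rw [hk, e', mul_one, inv_mul_cancel])
    rw [Nat.card_coe_set_eq, hWS, Set.ncard_sdiff (Set.singleton_subset_iff.mpr (one_mem S0)),
      Set.ncard_singleton, ← Nat.card_coe_set_eq]
    show Nat.card S0 - 1 = 7
    rw [hcardS]
  have hN168 : Nat.card N = 168 := by
    rw [← K.card_mul_index, ← hWcard, hW7c, hK, Nat.card_congr (subgroupOfEquivOfLe hCN).toEquiv, hcardC]
  exact ⟨⟨S, J, hJS, h.ne, hcardS, fun a ha => ha.2, hself, hcardC, hCN, hN168,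
    fun a ha ha1 => hWN a (hW7 a ha ha1)⟩, rfl⟩

end CfsgLib.TwoAlt
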