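import Mathlib

/-!
The projective line over the field of eight elements: a cross-ratio separates the simple group.
-/

set_option autoImplicit false
set_option maxRecDepth 20000

namespace CfsgLib.TwoAlt

/-- index of the power `i` of the primitive element -/
def pw (i : ℕ) : Fin 9 := ⟨2 + i % 7, by omega⟩

/-- multiplication by the primitive element -/
def permP : Fin 9 → Fin 9 := ![0, 1, 3, 4, 5, 6, 7, 8, 2]

/-- translation by one -/
def permA : Fin 9 → Fin 9 := ![0, 2, 1, 5, 8, 3, 7, 6, 4]

/-- inversion -/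
def permT : Fin 9 → Fin 9 := ![1, 0, 2, 8, 7, 6, 5, 4, 3]

/-- a field automorphism -/
def permY (r : ℕ) : Fin 9 → Fin 9 := fun i => if i.val < 2 then i else pw (r * (i.val - 2))

/-- bit pattern of a point other than infinity -/
def bits : Fin 9 → ℕ := ![0, 0, 1, 2, 4, 3, 6, 7, 5]

/-- logarithm of a bit pattern -/
def bitsLog : ℕ → ℕ := fun n => [0, 0, 1, 3, 2, 6, 4, 5].getD n 0

/-- logarithm of the difference of two points -/
def diffLog (a b : Fin 9) : ℕ := if a = 0 ∨ b = 0 then 0 else bitsLog (Nat.xor (bits a) (bits b))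

/-- logarithm of the cross-ratio -/
def cross (a b c d : Fin 9) : ℕ := (diffLog a c + diffLog b d + 6 * diffLog a d + 6 * diffLog b c) % 7

/-- preservation of the cross-ratio -/
def Preserves (σ : Fin 9 → Fin 9) : Prop :=
  ∀ a b c d : Fin 9, a ≠ b → a ≠ c → a ≠ d → b ≠ c → b ≠ d → c ≠ d →
    cross (σ a) (σ b) (σ c) (σ d) = cross a b c d

theorem preserves_of_check {σ : Fin 9 → Fin 9}
    (h : ∀ a b c d : Fin 9, (decide (a = b) || decide (a = c) || decide (a = d) || decide (b = c) ||
      decide (b = d) || decide (c = d) || decide (cross (σ a) (σ b) (σ c) (σ d) = cross a b c d)) = true) :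
    Preserves σ := fun a b c d h1 h2 h3 h4 h5 h6 => by simpa [h1, h2, h3, h4, h5, h6] using h a b c d

theorem preserves_P : Preserves permP := preserves_of_check (by decide +kernel)

theorem preserves_A : Preserves permA := preserves_of_check (by decide +kernel)

theorem preserves_T : Preserves permT := preserves_of_check (by decide +kernel)

theorem not_preserves_Y : ¬ cross (permY 2 0) (permY 2 1) (permY 2 2) (permY 2 3) = cross 0 1 2 3 ∧
    ¬ cross (permY 4 0) (permY 4 1) (permY 4 2) (permY 4 3) = cross 0 1 2 3 := by decide +kernel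

theorem preserves_id : Preserves id := fun _ _ _ _ _ _ _ _ _ _ => rfl

theorem Preserves.comp {σ τ : Fin 9 → Fin 9} (h : Preserves σ) (h' : Preserves τ)
    (hτ : Function.Injective τ) : Preserves (σ ∘ τ) := fun a b c d h1 h2 h3 h4 h5 h6 => by
  rw [Function.comp_apply, Function.comp_apply, Function.comp_apply, Function.comp_apply,
    h _ _ _ _ (hτ.ne h1) (hτ.ne h2) (hτ.ne h3) (hτ.ne h4) (hτ.ne h5) (hτ.ne h6), h' a b c d h1 h2 h3 h4 h5 h6]

theorem Preserves.inverse {σ τ : Fin 9 → Fin 9} (h : Preserves σ) (hστ : ∀ i, σ (τ i) = i) :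
    Preserves τ := by
  have hτ : Function.Injective τ := Function.LeftInverse.injective hστ
  intro a b c d h1 h2 h3 h4 h5 h6
  have := h (τ a) (τ b) (τ c) (τ d) (hτ.ne h1) (hτ.ne h2) (hτ.ne h3) (hτ.ne h4) (hτ.ne h5) (hτ.ne h6)
  rw [hστ, hστ, hστ, hστ] at this
  exact this.symm

end CfsgLib.TwoAlt
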