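import Cfsg.Agent.TwoAlt.Count

/-!
There are nine Sylow 2-subgroups and the group has order 1512.
-/

set_option autoImplicit false
set_option linter.style.haveILetI false
set_option linter.unusedSectionVars false

namespace CfsgLib.TwoAlt

open Subgroup

universe u

variable {G : Type u} [Group G] [Finite G]

theorem orderOf_conj' (g p : G) : orderOf (g * p * g⁻¹) = orderOf p :=
  orderOf_injective (MulAut.conj g).toMonoidHom (MulAut.conj g).injective p

namespace Four

variable (F : Four G)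

/-- the point fixed by the Sylow normalizer -/
def pt : G ⧸ F.N := ((1 : G) : G ⧸ F.N)

theorem smul_pt_iff (g : G) : g • F.pt = F.pt ↔ g ∈ F.N := by
  rw [pt, smul_mk_eq_iff]; simp

theorem N_ne_top (hns : ¬ Group.IsSolvable G) : F.N ≠ ⊤ := by
  intro hN
  apply hns
  haveI hn : (F.S : Subgroup G).Normal := normalizer_eq_top_iff.mp hN
  haveI : IsMulCommutative (F.S : Subgroup G) := ⟨⟨fun a b => Subtype.ext (F.comm a.2 b.2)⟩⟩
  have hq : Nat.card (G ⧸ (F.S : Subgroup G)) = 21 := by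
    have h := (F.S : Subgroup G).card_eq_card_quotient_mul_card_subgroup
    have h168 : Nat.card G = 168 := by rw [← Subgroup.card_top, ← hN]; exact F.card_N
    rw [h168, F.card_S] at h
    omega
  haveI : IsZGroup (G ⧸ (F.S : Subgroup G)) := IsZGroup.of_squarefree (by
    rw [hq, show (21 : ℕ) = 3 * 7 by norm_num, Nat.squarefree_mul (by norm_num)]
    exact ⟨Nat.prime_three.squarefree, (by norm_num : Nat.Prime 7).squarefree⟩)
  haveI : Group.IsSolvable (F.S : Subgroup G) :=
    Group.isSolvable_of_comm fun a b => Subtype.ext (F.comm a.2 b.2)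
  exact Group.isSolvable_of_ker_le_range (F.S : Subgroup G).subtype (QuotientGroup.mk' (F.S : Subgroup G))
    (by rw [QuotientGroup.ker_mk', Subgroup.range_subtype])

include F in
theorem two_element {g : G} {k : ℕ} (hg : g ^ 2 ^ k = 1) : g * g = 1 := by
  haveI : Fact (Nat.Prime 2) := ⟨Nat.prime_two⟩
  have hkp : IsPGroup 2 (zpowers g) := by
    obtain ⟨i, -, hi⟩ := (Nat.dvd_prime_pow Nat.prime_two).mp (orderOf_dvd_of_pow_eq_one hg)
    exact IsPGroup.of_card (n := i) (by rw [Nat.card_zpowers, hi])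
  obtain ⟨R, hR⟩ := hkp.exists_le_sylow
  obtain ⟨d, hd⟩ := MulAction.exists_smul_eq G F.S R
  have htR : g ∈ (R : Subgroup G) := hR (mem_zpowers g)
  rw [← hd, Sylow.coe_subgroup_smul, Subgroup.mem_pointwise_smul_iff_inv_smul_mem] at htR
  simp only [MulAut.smul_def, ← map_inv, MulAut.conj_apply, inv_inv] at htR
  have := F.sq _ htR
  calc g * g = d * ((d⁻¹ * g * d) * (d⁻¹ * g * d)) * d⁻¹ := by group
  _ = 1 := by rw [this, mul_one, mul_inv_cancel]

/-- The configuration found by counting. -/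
structure Geometry where
  /-- a second point -/
  b : G ⧸ F.N
  /-- an element of order seven fixing two points -/
  p : G
  ne : b ≠ F.pt
  order_p : orderOf p = 7
  p_pt : p • F.pt = F.pt
  p_b : p • b = b
  fix_p : ∀ x : G ⧸ F.N, p • x = x → x = F.pt ∨ x = b
  card_stab : Nat.card (MulAction.stabilizer G F.pt ⊓ MulAction.stabilizer G b : Subgroup G) = 21
  card_pts : Nat.card (G ⧸ F.N) = 9
  card_G : Nat.card G = 1512

theorem exists_geometry (hns : ¬ Group.IsSolvable G) : Nonempty F.Geometry := by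
  classical
  haveI : Fact (Nat.Prime 2) := ⟨Nat.prime_two⟩
  haveI : Fact (Nat.Prime 7) := ⟨by norm_num⟩
  obtain ⟨g0, hg0⟩ : ∃ g0 : G, g0 ∉ F.N := by
    by_contra h
    push Not at h
    exact F.N_ne_top hns (eq_top_iff' _ |>.mpr h)
  set b : G ⧸ F.N := g0 • F.pt with hb
  have hbne : b ≠ F.pt := fun e => hg0 ((F.smul_pt_iff g0).mp e)
  have h7 := (F.swap_bound hbne.symm).2 (F.swap_card hbne.symm)
  obtain ⟨p, hp, hpa, hpb⟩ := h7.1
  set P := zpowers p with hP
  set NP := normalizer (P : Set G) with hNP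
  set Fx : Set (G ⧸ F.N) := {x | p • x = x} with hFx
  have hmemP : ∀ {q : G} {x : G ⧸ F.N}, q ∈ P → p • x = x → q • x = x := by
    intro q x hq hx
    obtain ⟨i, rfl⟩ := hq
    exact (zpowers_le.mpr (show p ∈ MulAction.stabilizer G x from hx)) ⟨i, rfl⟩
  have hmap : ∀ g ∈ NP, ∀ x ∈ Fx, g • x ∈ Fx := by
    intro g hg x hx
    have h1 : g⁻¹ * p * g ∈ P := (mem_normalizer_iff''.mp hg p).mp (mem_zpowers p)
    have h2 := hmemP h1 hx
    show p • g • x = g • x
    rw [mul_smul, mul_smul, inv_smul_eq_iff] at h2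
    exact h2
  have hswapNP : ∀ {x y : G ⧸ F.N}, x ∈ Fx → y ∈ Fx → x ≠ y → ∀ t : F.Sw x y,
      t.1.1 * p * t.1.1 = p⁻¹ ∧ t.1.1 ∈ NP := by
    intro x y hx hy hxy t
    have h := ((F.swap_bound hxy).2 (F.swap_card hxy)).2 p hp hx hy t
    refine ⟨h, ?_⟩
    have ti : t.1.1⁻¹ = t.1.1 := inv_eq_of_mul_eq_one_right t.1.2.1
    have hle : ∀ q ∈ P, t.1.1 * q * t.1.1⁻¹ ∈ P := by
      rintro _ ⟨i, rfl⟩
      show t.1.1 * p ^ i * t.1.1⁻¹ ∈ P
      rw [← conj_zpow, ti, h]
      exact zpow_mem (inv_mem (mem_zpowers p)) i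
    rw [hNP, mem_normalizer_iff]
    refine fun q => ⟨hle q, fun hq => ?_⟩
    have h' := hle _ hq
    rw [ti] at h'
    rwa [show t.1.1 * (t.1.1 * q * t.1.1) * t.1.1 = (t.1.1 * t.1.1) * q * (t.1.1 * t.1.1) by group, t.1.2.1,
      one_mul, mul_one] at h'
  -- the stabilizer of the point in the normalizer
  have hpN : p ∈ F.N := (F.smul_pt_iff p).mp hpa
  set P' : Subgroup F.N := P.subgroupOf F.N with hP'
  have hP'7 : Nat.card P' = 7 := by
    rw [hP', Nat.card_congr (subgroupOfEquivOfLe (zpowers_le.mpr hpN)).toEquiv, Nat.card_zpowers, hp]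
  have hNcard : Nat.card F.N = 168 := F.card_N
  have hfac : (Nat.card F.N).factorization 7 = 1 := by
    rw [hNcard, show (168 : ℕ) = 7 ^ 1 * 24 by norm_num,
      Nat.factorization_mul (by norm_num) (by norm_num), Finsupp.add_apply, Nat.Prime.factorization_pow (by norm_num),
      Finsupp.single_eq_same, Nat.factorization_eq_zero_of_not_dvd (by norm_num : ¬ 7 ∣ 24)]
  set Q : Sylow 7 F.N := Sylow.ofCard P' (by rw [hP'7, hfac, pow_one]) with hQ
  have hn7 : Nat.card (Sylow 7 F.N) = 8 := by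
    have h1 := card_sylow_modEq_one 7 F.N
    have h2 : Nat.card (Sylow 7 F.N) ∣ 24 := by
      refine Q.card_dvd_index.trans (dvd_of_eq ?_)
      have h3 := (Q : Subgroup F.N).card_mul_index
      rw [show Nat.card (Q : Subgroup F.N) = 7 from hP'7, hNcard] at h3
      omega
    have h4 : Nat.card (Sylow 7 F.N) ∈ Nat.divisors 24 := Nat.mem_divisors.mpr ⟨h2, by norm_num⟩
    rw [show Nat.divisors 24 = {1, 2, 3, 4, 6, 8, 12, 24} by decide] at h4
    simp only [Finset.mem_insert, Finset.mem_singleton] at h4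
    unfold Nat.ModEq at h1
    rcases h4 with h | h | h | h | h | h | h | h
    · exfalso
      haveI : Subsingleton (Sylow 7 F.N) := (Nat.card_eq_one_iff_unique.mp h).1
      have hQn : (Q : Subgroup F.N).Normal := Sylow.normal_of_subsingleton Q
      have hcomm : p ∈ centralizer ((F.S : Subgroup G) : Set G) := by
        rw [mem_centralizer_iff]
        intro a ha
        have haN : a ∈ F.N := F.S_le ha
        have h5 : a * p * a⁻¹ * p⁻¹ ∈ P := mul_mem
          (hQn.conj_mem ⟨p, hpN⟩ (mem_zpowers p) ⟨a, haN⟩) (inv_mem (mem_zpowers p))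
        have h6 : a * p * a⁻¹ * p⁻¹ ∈ (F.S : Subgroup G) := by
          rw [show a * p * a⁻¹ * p⁻¹ = a * (p * a⁻¹ * p⁻¹) by group]
          exact mul_mem ha ((mem_normalizer_iff.mp hpN _).mp (inv_mem ha))
        have h7 : a * p * a⁻¹ * p⁻¹ = 1 := by
          have d1 := Subgroup.orderOf_dvd_natCard _ h5
          have d2 := Subgroup.orderOf_dvd_natCard _ h6
          rw [hP, Nat.card_zpowers, hp] at d1
          rw [F.card_S] at d2
          exact orderOf_eq_one_iff.mp (Nat.dvd_one.mp (Nat.dvd_gcd d1 d2))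
        rwa [mul_inv_eq_one, mul_inv_eq_iff_eq_mul] at h7
      have d := orderOf_dvd_of_pow_eq_one (by rw [pow_two]; exact F.sq p (F.self hcomm) : p ^ 2 = 1)
      rw [hp] at d
      norm_num at d
    all_goals omega
  have hstab : Nat.card (NP ⊓ F.N : Subgroup G) = 21 := by
    have h1 := Q.card_eq_index_normalizer
    rw [hn7] at h1
    have h2 := (normalizer ((Q : Subgroup F.N) : Set F.N)).card_mul_index
    have h1' : 8 = (normalizer ((Q : Subgroup F.N) : Set F.N)).index := h1
    rw [← h1', hNcard] at h2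
    have h3 : normalizer ((Q : Subgroup F.N) : Set F.N) = NP.subgroupOf F.N := by
      ext g
      simp only [mem_normalizer_iff, mem_subgroupOf, hNP]
      constructor
      · intro h q
        constructor
        · intro hq
          exact (h ⟨q, zpowers_le.mpr hpN hq⟩).mp hq
        · intro hq
          have hqN : q ∈ F.N := by
            have := mul_mem (mul_mem (inv_mem g.2) (zpowers_le.mpr hpN hq)) g.2
            rwa [show (g : G)⁻¹ * ((g : G) * q * (g : G)⁻¹) * (g : G) = q by group] at this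
          exact (h ⟨q, hqN⟩).mpr hq
      · intro h q
        exact h q
    rw [h3] at h2
    have h4 : Nat.card (NP ⊓ F.N : Subgroup G) = Nat.card (NP.subgroupOf F.N) := by
      rw [← subgroupOf_map_subtype, Subgroup.card_map_of_injective (Subgroup.subtype_injective _)]
    omega
  -- the action on the fixed points
  have hf : Nat.card NP = 21 * Nat.card Fx := by
    have horb : MulAction.orbit NP F.pt = Fx := by
      ext x
      constructor
      · rintro ⟨⟨g, hg⟩, rfl⟩
        exact hmap g hg F.pt hpa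
      · intro hx
        by_cases hxa : x = F.pt
        · rw [hxa]; exact MulAction.mem_orbit_self _
        · obtain ⟨t⟩ : Nonempty (F.Sw F.pt x) :=
            (Nat.card_pos_iff.mp (by rw [F.swap_card (Ne.symm hxa)]; norm_num)).1
          exact ⟨⟨t.1.1, (hswapNP hpa hx (Ne.symm hxa) t).2⟩, t.2⟩
    have h1 := (MulAction.stabilizer NP F.pt).card_mul_index
    rw [MulAction.index_stabilizer, horb, ← Nat.card_coe_set_eq] at h1
    have h2 : MulAction.stabilizer NP F.pt = F.N.subgroupOf NP := by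
      ext g
      rw [mem_subgroupOf, ← F.smul_pt_iff]
      rfl
    have h3 : Nat.card (F.N.subgroupOf NP) = 21 := by
      rw [← hstab, inf_comm, ← subgroupOf_map_subtype, Subgroup.card_map_of_injective (Subgroup.subtype_injective _)]
    rw [← h1, h2, h3]
  have hFa : F.pt ∈ Fx := hpa
  have hFb : b ∈ Fx := hpb
  -- involutions of the normalizer
  let IN := {t : Inv G // t.1 ∈ NP}
  haveI : Finite IN := Subtype.finite
  have hmoves : ∀ t : IN, ∀ x ∈ Fx, t.1.1 • x ≠ x := by
    rintro ⟨⟨t, ht, ht1⟩, htN⟩ x hx e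
    induction x using QuotientGroup.induction_on with | _ g =>
    change p • (g : G ⧸ F.N) = g at hx
    rw [smul_mk_eq_iff] at hx
    have e' : g⁻¹ * t * g ∈ F.N := (smul_mk_eq_iff t g).mp e
    set s := g⁻¹ * t * g with hs
    set q := g⁻¹ * p * g with hq
    have hq7 : orderOf q = 7 := by
      rw [hq, show g⁻¹ * p * g = g⁻¹ * p * g⁻¹⁻¹ by rw [inv_inv], orderOf_conj', hp]
    have hs2 : s * s = 1 := by
      rw [hs, show g⁻¹ * t * g * (g⁻¹ * t * g) = g⁻¹ * (t * t) * g by group, ht, mul_one, inv_mul_cancel]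
    have hsS := F.mem_of_inv hs2 e'
    have h1 : s * q * s⁻¹ ∈ zpowers q := by
      have h3 : t * p * t⁻¹ ∈ P := (mem_normalizer_iff.mp htN p).mp (mem_zpowers p)
      obtain ⟨i, hi⟩ := h3
      change p ^ i = t * p * t⁻¹ at hi
      refine ⟨i, ?_⟩
      show q ^ i = s * q * s⁻¹
      rw [hq, show g⁻¹ * p * g = g⁻¹ * p * g⁻¹⁻¹ by rw [inv_inv], conj_zpow, hi, inv_inv, hs]
      group
    have h5 : s * q * s⁻¹ * q⁻¹ ∈ zpowers q := mul_mem h1 (inv_mem (mem_zpowers q))
    have h6 : s * q * s⁻¹ * q⁻¹ ∈ (F.S : Subgroup G) := by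
      rw [show s * q * s⁻¹ * q⁻¹ = s * (q * s⁻¹ * q⁻¹) by group]
      exact mul_mem hsS ((mem_normalizer_iff.mp hx _).mp (inv_mem hsS))
    have d1 := Subgroup.orderOf_dvd_natCard _ h5
    have d2 := Subgroup.orderOf_dvd_natCard _ h6
    rw [Nat.card_zpowers, hq7] at d1
    rw [F.card_S] at d2
    have h7 := orderOf_eq_one_iff.mp (Nat.dvd_one.mp (Nat.dvd_gcd d1 d2))
    rw [mul_inv_eq_one, mul_inv_eq_iff_eq_mul] at h7
    have hs1 : s ≠ 1 := fun e1 => ht1 (by
      calc t = g * s * g⁻¹ := by rw [hs]; group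
      _ = 1 := by rw [e1, mul_one, mul_inv_cancel])
    obtain ⟨n, -, hn⟩ := F.one_class s hsS hs1
    have h8 : n⁻¹ * q * n ∈ centralizer ({F.J} : Set G) := mem_centralizer_singleton_iff.mpr (by
      calc n⁻¹ * q * n * F.J = n⁻¹ * (q * (n * F.J * n⁻¹)) * n := by group
      _ = n⁻¹ * ((n * F.J * n⁻¹) * q) * n := by rw [hn, h7]
      _ = F.J * (n⁻¹ * q * n) := by group)
    have h9 := Subgroup.orderOf_dvd_natCard _ h8
    rw [show n⁻¹ * q * n = n⁻¹ * q * n⁻¹⁻¹ by rw [inv_inv], orderOf_conj', hq7, F.card_C] at h9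
    norm_num at h9
  have hinvp : ∀ t : IN, t.1.1 * p * t.1.1 = p⁻¹ := fun t =>
    (hswapNP hFa (hmap _ t.2 _ hFa) (hmoves t _ hFa).symm ⟨t.1, rfl⟩).1
  have hIN : Nat.card IN * Nat.card Fx = 7 * (Nat.card Fx * (Nat.card Fx - 1)) := by
    letI := Fintype.ofFinite Fx
    let Pr := {q : Fx × Fx // q.1 ≠ q.2}
    letI : Fintype Pr := Fintype.ofFinite _
    let f : IN × Fx → Σ q : Pr, F.Sw q.1.1.1 q.1.2.1 := fun a =>
      ⟨⟨(a.2, ⟨a.1.1.1 • a.2.1, hmap _ a.1.2 _ a.2.2⟩), fun e =>
        hmoves a.1 _ a.2.2 (congrArg Subtype.val e).symm⟩, ⟨a.1.1, rfl⟩⟩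
    have hbij : Function.Bijective f := by
      constructor
      · rintro ⟨s, x⟩ ⟨t, y⟩ h
        have h1 : x = y := congrArg (fun z => z.1.1.1) h
        have h2 : s.1.1 = t.1.1 := congrArg (fun z => z.2.1.1) h
        subst h1
        exact Prod.ext (Subtype.ext (Subtype.ext h2)) rfl
      · rintro ⟨⟨⟨⟨x, hx⟩, ⟨y, hy⟩⟩, hxy⟩, ⟨t, ht⟩⟩
        have hxy' : x ≠ y := fun e => hxy (Subtype.ext e)
        change t.1 • x = y at ht
        refine ⟨(⟨t, (hswapNP hx hy hxy' ⟨t, ht⟩).2⟩, ⟨x, hx⟩), ?_⟩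
        subst ht
        rfl
    rw [← Nat.card_prod, Nat.card_eq_of_bijective f hbij, Nat.card_sigma,
      Finset.sum_congr rfl fun q _ => F.swap_card (fun e => q.2 (Subtype.ext e)), Finset.sum_const,
      Finset.card_univ, smul_eq_mul, mul_comm]
    congr 1
    show Fintype.card {q : Fx × Fx // q.1 ≠ q.2} = _
    rw [Fintype.card_subtype, show (Finset.univ.filter fun q : Fx × Fx => q.1 ≠ q.2) =
      (Finset.univ : Finset Fx).offDiag by ext; simp, Finset.offDiag_card, Finset.card_univ,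
      Nat.mul_sub, mul_one, Nat.card_eq_fintype_card]
  have hf2 : 2 ≤ Nat.card Fx := by
    have : ({F.pt, b} : Set (G ⧸ F.N)).ncard ≤ Fx.ncard := Set.ncard_le_ncard (by
      rintro _ (rfl | rfl)
      · exact hFa
      · exact hFb)
    rw [Set.ncard_pair hbne.symm, ← Nat.card_coe_set_eq] at this
    exact this
  have hIN' : Nat.card IN = 7 * (Nat.card Fx - 1) := by
    refine Nat.eq_of_mul_eq_mul_right (m := Nat.card Fx) (by omega) ?_
    rw [hIN]; ring
  obtain ⟨t0⟩ : Nonempty IN := (Nat.card_pos_iff.mp (by omega)).1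
  obtain ⟨R⟩ : Nonempty (Sylow 2 NP) := inferInstance
  have hR2 : Nat.card (R : Subgroup NP) = 2 := by
    have hle : Nat.card (R : Subgroup NP) ≤ 2 := by
      by_contra hlt
      push Not at hlt
      letI := Fintype.ofFinite (R : Subgroup NP)
      rw [Nat.card_eq_fintype_card, Fintype.two_lt_card_iff] at hlt
      obtain ⟨a, c, d, hac, had, hcd⟩ := hlt
      obtain ⟨r, s, hr, hs, hrs⟩ : ∃ r s : (R : Subgroup NP), r ≠ 1 ∧ s ≠ 1 ∧ r ≠ s := by
        by_cases ha : a = 1
        · exact ⟨c, d, fun e => hac (ha.trans e.symm), fun e => had (ha.trans e.symm), hcd⟩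
        · by_cases hc : c = 1
          · exact ⟨a, d, ha, fun e => hcd (hc.trans e.symm), had⟩
          · exact ⟨a, c, ha, hc, hac⟩
      have hinv : ∀ r : (R : Subgroup NP), r ≠ 1 →
          ((r : NP) : G) * ((r : NP) : G) = 1 ∧ ((r : NP) : G) * p * ((r : NP) : G) = p⁻¹ := by
        intro r hr
        obtain ⟨k, hk⟩ := R.2 r
        have hk' : ((r : NP) : G) ^ 2 ^ k = 1 := by
          have := congrArg (fun z : (R : Subgroup NP) => ((z : NP) : G)) hk
          simpa using this
        have h1 := F.two_element hk'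
        exact ⟨h1, hinvp ⟨⟨_, h1, fun e => hr (Subtype.ext (Subtype.ext e))⟩, (r : NP).2⟩⟩
      obtain ⟨r2, rp⟩ := hinv r hr
      obtain ⟨s2, sp⟩ := hinv s hs
      have hne : r * s ≠ 1 := fun e => hrs (by
        rw [eq_inv_of_mul_eq_one_left e]
        exact inv_eq_of_mul_eq_one_right (Subtype.ext (Subtype.ext s2)))
      obtain ⟨q2, qp⟩ := hinv _ hne
      have ri : ((r : NP) : G)⁻¹ = (r : NP) := inv_eq_of_mul_eq_one_right r2
      have si : ((s : NP) : G)⁻¹ = (s : NP) := inv_eq_of_mul_eq_one_right s2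
      have qe : (((r * s : (R : Subgroup NP)) : NP) : G) = ((r : NP) : G) * ((s : NP) : G) := rfl
      rw [qe] at q2 qp
      have hcom : ((r : NP) : G) * ((s : NP) : G) = ((s : NP) : G) * ((r : NP) : G) := by
        rw [← inv_eq_of_mul_eq_one_right q2, mul_inv_rev, ri, si]
      have : p⁻¹ = p := by
        calc p⁻¹ = ((r : NP) : G) * (s : NP) * p * (((r : NP) : G) * (s : NP)) := qp.symm
        _ = ((r : NP) : G) * ((s : NP) * p * (s : NP)) * (r : NP) := by
          nth_rw 2 [hcom]; group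
        _ = p := by
          rw [sp, show ((r : NP) : G) * p⁻¹ * (r : NP) = (((r : NP) : G)⁻¹ * p * ((r : NP) : G)⁻¹)⁻¹ by group,
            ri, rp, inv_inv]
      have d : orderOf p ∣ 2 := orderOf_dvd_of_pow_eq_one (by
        rw [pow_two]; nth_rw 1 [← this]; exact inv_mul_cancel p)
      rw [hp] at d
      norm_num at d
    have hge : 2 ∣ Nat.card (R : Subgroup NP) := by
      refine R.pow_dvd_card_of_pow_dvd_card (n := 1) ?_
      rw [pow_one]
      have := Subgroup.orderOf_dvd_natCard NP t0.2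
      rwa [orderOf_eq_prime (by rw [pow_two]; exact t0.1.2.1) t0.1.2.2] at this
    have := Nat.le_of_dvd Nat.card_pos hge
    omega
  -- the centralizer of the involution
  set Ct := (centralizer ({t0.1.1} : Set G)).subgroupOf NP with hCt
  have hcl : Ct.index = Nat.card IN := by
    let f : NP ⧸ Ct → IN := fun q => Quotient.liftOn' q
      (fun g => (⟨⟨(g : G) * t0.1.1 * (g : G)⁻¹, by
          rw [show (g : G) * t0.1.1 * (g : G)⁻¹ * ((g : G) * t0.1.1 * (g : G)⁻¹) =
            (g : G) * (t0.1.1 * t0.1.1) * (g : G)⁻¹ by group, t0.1.2.1, mul_one, mul_inv_cancel],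
          fun e => t0.1.2.2 (by
            calc t0.1.1 = (g : G)⁻¹ * ((g : G) * t0.1.1 * (g : G)⁻¹) * (g : G) := by group
            _ = 1 := by rw [e, mul_one, inv_mul_cancel])⟩,
          mul_mem (mul_mem g.2 t0.2) (inv_mem g.2)⟩ : IN))
      (fun m n hmn => by
        rw [QuotientGroup.leftRel_apply, hCt, mem_subgroupOf, mem_centralizer_singleton_iff] at hmn
        push_cast at hmn
        refine Subtype.ext (Subtype.ext ?_)
        show (m : G) * t0.1.1 * (m : G)⁻¹ = (n : G) * t0.1.1 * (n : G)⁻¹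
        calc (m : G) * t0.1.1 * (m : G)⁻¹
            = (m : G) * (t0.1.1 * ((m : G)⁻¹ * (n : G))) * (n : G)⁻¹ := by group
        _ = (m : G) * (((m : G)⁻¹ * (n : G)) * t0.1.1) * (n : G)⁻¹ := by rw [hmn]
        _ = (n : G) * t0.1.1 * (n : G)⁻¹ := by group)
    refine Nat.card_eq_of_bijective f ⟨?_, ?_⟩
    · intro q r hqr
      induction q using QuotientGroup.induction_on with | _ m =>
      induction r using QuotientGroup.induction_on with | _ n =>
      have hv : (m : G) * t0.1.1 * (m : G)⁻¹ = (n : G) * t0.1.1 * (n : G)⁻¹ :=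
        congrArg (fun z : IN => z.1.1) hqr
      rw [QuotientGroup.eq, hCt, mem_subgroupOf, mem_centralizer_singleton_iff]
      push_cast
      calc (m : G)⁻¹ * (n : G) * t0.1.1 = (m : G)⁻¹ * ((n : G) * t0.1.1 * (n : G)⁻¹) * (n : G) := by group
      _ = (m : G)⁻¹ * ((m : G) * t0.1.1 * (m : G)⁻¹) * (n : G) := by rw [hv]
      _ = t0.1.1 * ((m : G)⁻¹ * (n : G)) := by group
    · intro s
      have hsyl : ∀ t : IN, ∃ T : Sylow 2 NP, (T : Subgroup NP) = zpowers (⟨t.1.1, t.2⟩ : NP) := by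
        intro t
        have ho : orderOf (⟨t.1.1, t.2⟩ : NP) = 2 := by
          rw [Subgroup.orderOf_mk]; exact orderOf_eq_prime (by rw [pow_two]; exact t.1.2.1) t.1.2.2
        refine ⟨Sylow.ofCard (zpowers (⟨t.1.1, t.2⟩ : NP)) ?_, rfl⟩
        rw [Nat.card_zpowers, ho]
        have hm := R.card_eq_multiplicity
        rw [hR2] at hm
        exact hm
      obtain ⟨T1, hT1⟩ := hsyl t0
      obtain ⟨T2, hT2⟩ := hsyl s
      obtain ⟨d, hd⟩ := MulAction.exists_smul_eq NP T1 T2
      refine ⟨QuotientGroup.mk d, Subtype.ext (Subtype.ext ?_)⟩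
      have hm : d * ⟨t0.1.1, t0.2⟩ * d⁻¹ ∈ zpowers (⟨s.1.1, s.2⟩ : NP) := by
        rw [← hT2, ← hd, Sylow.coe_subgroup_smul, hT1]
        exact Subgroup.smul_mem_pointwise_smul _ (MulAut.conj d) _ (mem_zpowers _)
      obtain ⟨i, hi⟩ := hm
      have hi' : s.1.1 ^ i = (d : G) * t0.1.1 * (d : G)⁻¹ := by
        have := congrArg (fun z : NP => (z : G)) hi
        simpa using this
      rcases Int.even_or_odd i with ⟨k, rfl⟩ | ⟨k, rfl⟩
      · exfalso
        rw [zpow_add, ← (Commute.refl s.1.1).mul_zpow, s.1.2.1, one_zpow] at hi'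
        refine t0.1.2.2 ?_
        calc t0.1.1 = (d : G)⁻¹ * ((d : G) * t0.1.1 * (d : G)⁻¹) * (d : G) := by group
        _ = 1 := by rw [← hi', mul_one, inv_mul_cancel]
      · rw [zpow_add_one, zpow_mul, zpow_ofNat, pow_two, s.1.2.1, one_zpow, one_mul] at hi'
        exact hi'.symm
  have hfx : Nat.card Fx = 2 := by
    have h1 := Ct.card_mul_index
    rw [hcl, hIN', hf] at h1
    have h2 : Nat.card Ct ∣ 24 := by
      obtain ⟨g, hg⟩ := F.conj_J t0.1.2.1 t0.1.2.2
      have h3 : centralizer ({t0.1.1} : Set G) ≤ (centralizer ({F.J} : Set G)).map (MulAut.conj g).toMonoidHom := by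
        intro c hc
        rw [mem_centralizer_singleton_iff] at hc
        refine ⟨g⁻¹ * c * g, mem_centralizer_singleton_iff.mpr ?_, by simp [mul_assoc]⟩
        calc g⁻¹ * c * g * F.J = g⁻¹ * (c * (g * F.J * g⁻¹)) * g := by group
        _ = g⁻¹ * ((g * F.J * g⁻¹) * c) * g := by rw [hg, hc]
        _ = F.J * (g⁻¹ * c * g) := by group
      have h4 := Subgroup.card_dvd_of_le h3
      rw [Subgroup.card_map_of_injective (f := (MulAut.conj g).toMonoidHom) (MulAut.conj g).injective,
        F.card_C] at h4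
      refine dvd_trans ?_ h4
      rw [hCt, ← Subgroup.card_map_of_injective (f := NP.subtype) (Subgroup.subtype_injective _),
        subgroupOf_map_subtype]
      exact Subgroup.card_dvd_of_le inf_le_left
    have h5 : 2 ∣ Nat.card Ct := by
      have : (⟨t0.1.1, t0.2⟩ : NP) ∈ Ct := by rw [hCt, mem_subgroupOf, mem_centralizer_singleton_iff]
      have h6 := Subgroup.orderOf_dvd_natCard _ this
      rwa [Subgroup.orderOf_mk, orderOf_eq_prime (by rw [pow_two]; exact t0.1.2.1) t0.1.2.2] at h6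
    have h7 : ¬ 4 ∣ Nat.card Ct := fun h4 => by
      have := R.pow_dvd_card_of_pow_dvd_card (n := 2) ((show (2 : ℕ) ^ 2 = 4 by norm_num) ▸
        h4.trans (Subgroup.card_subgroup_dvd_card Ct))
      rw [hR2] at this
      norm_num at this
    have h8 : Nat.card Ct ∈ Nat.divisors 24 := Nat.mem_divisors.mpr ⟨h2, by norm_num⟩
    rw [show Nat.divisors 24 = {1, 2, 3, 4, 6, 8, 12, 24} by decide] at h8
    simp only [Finset.mem_insert, Finset.mem_singleton] at h8
    rcases h8 with h | h | h | h | h | h | h | h <;> rw [h] at h1 h5 h7 <;> omega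
  have hfix : ∀ x : G ⧸ F.N, p • x = x → x = F.pt ∨ x = b := by
    intro x hx
    have heq : ({F.pt, b} : Set (G ⧸ F.N)) = Fx := Set.eq_of_subset_of_ncard_le (by
      rintro _ (rfl | rfl)
      · exact hFa
      · exact hFb) (by rw [Set.ncard_pair hbne.symm, ← Nat.card_coe_set_eq, hfx])
    have : x ∈ ({F.pt, b} : Set (G ⧸ F.N)) := heq ▸ hx
    exact this
  set D := MulAction.stabilizer G F.pt ⊓ MulAction.stabilizer G b with hD
  have hD21 : Nat.card D = 21 := by
    refine le_antisymm (Nat.le_of_dvd (by norm_num) (F.card_stab_dvd hbne.symm)) ?_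
    rw [← hstab]
    refine Subgroup.card_le_of_le fun g hg => ?_
    obtain ⟨hg1, hg2⟩ := mem_inf.mp hg
    have ha : g • F.pt = F.pt := (F.smul_pt_iff g).mpr hg2
    refine mem_inf.mpr ⟨ha, ?_⟩
    show g • b = b
    rcases hfix _ (hmap g hg1 b hFb) with h | h
    · exact absurd (smul_left_cancel g (h.trans ha.symm)) hbne
    · exact h
  have horbit : MulAction.orbit F.N b = {x : G ⧸ F.N | x ≠ F.pt} := by
    ext x
    constructor
    · rintro ⟨⟨g, hg⟩, rfl⟩ e
      exact hbne (smul_left_cancel g (e.trans ((F.smul_pt_iff g).mpr hg).symm))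
    · intro hx
      obtain ⟨q, hq, hqa, hqx⟩ := ((F.swap_bound (Ne.symm hx)).2 (F.swap_card (Ne.symm hx))).1
      have hqN : q ∈ F.N := (F.smul_pt_iff q).mp hqa
      set Q2 : Sylow 7 F.N := Sylow.ofCard ((zpowers q).subgroupOf F.N) (by
        rw [Nat.card_congr (subgroupOfEquivOfLe (zpowers_le.mpr hqN)).toEquiv, Nat.card_zpowers, hq, hfac,
          pow_one]) with hQ2
      obtain ⟨d, hd⟩ := MulAction.exists_smul_eq F.N Q Q2
      have hm : (⟨(d : G) * p * (d : G)⁻¹, mul_mem (mul_mem d.2 hpN) (inv_mem d.2)⟩ : F.N) ∈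
          (Q2 : Subgroup F.N) := by
        rw [← hd, Sylow.coe_subgroup_smul]
        exact Subgroup.smul_mem_pointwise_smul (⟨p, hpN⟩ : F.N) (MulAut.conj d) _ (mem_zpowers p)
      obtain ⟨i, hi⟩ : (d : G) * p * (d : G)⁻¹ ∈ zpowers q := hm
      change q ^ i = (d : G) * p * (d : G)⁻¹ at hi
      have h1 : ((d : G) * p * (d : G)⁻¹) • x = x := by
        rw [← hi]
        exact (zpowers_le.mpr (show q ∈ MulAction.stabilizer G x from hqx)) ⟨i, rfl⟩
      rw [mul_smul, mul_smul, ← eq_inv_smul_iff] at h1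
      rcases hfix _ h1 with h | h
      · exact absurd (by rw [← (F.smul_pt_iff (d : G)).mpr d.2, ← h, smul_inv_smul]) hx
      · exact ⟨d, by rw [← h]; exact smul_inv_smul _ _⟩
  have hn9 : Nat.card (G ⧸ F.N) = 9 := by
    have h1 := (MulAction.stabilizer F.N b).card_mul_index
    rw [MulAction.index_stabilizer, horbit, hNcard] at h1
    have h2 : MulAction.stabilizer F.N b = D.subgroupOf F.N := by
      ext g
      rw [mem_subgroupOf, hD, mem_inf, MulAction.mem_stabilizer_iff, MulAction.mem_stabilizer_iff,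
        MulAction.mem_stabilizer_iff]
      exact ⟨fun h => ⟨(F.smul_pt_iff g).mpr g.2, h⟩, fun h => h.2⟩
    rw [h2, Nat.card_congr (subgroupOfEquivOfLe
      (fun g hg => (F.smul_pt_iff g).mp (mem_inf.mp hg).1 : D ≤ F.N)).toEquiv, hD21] at h1
    have h3 := Set.ncard_compl ({F.pt} : Set (G ⧸ F.N))
    rw [Set.ncard_singleton, show ({F.pt} : Set (G ⧸ F.N))ᶜ = {x | x ≠ F.pt} from rfl] at h3
    omega
  refine ⟨⟨b, p, hbne, hp, hpa, hpb, hfix, hD21, hn9, ?_⟩⟩
  rw [F.N.card_eq_card_quotient_mul_card_subgroup, hn9, hNcard]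

end Four

end CfsgLib.TwoAlt
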